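import Mathlib

/-!
# The F-lemma for S5924, U-II (helper857)

`fix_unique` : `M` elementary abelian of order 16, `U` of order 5 without fixed points, `H U = U² H`; `H` fixes at most one
nontrivial element.
-/

set_option autoImplicit false

namespace Cfsg.Agent.H857.L5

section Add

variable {V : Type*} [AddCommGroup V]

theorem fix_unique_add [Finite V] (h16 : Nat.card V = 16) (h2 : ∀ v : V, 2 • v = 0) (U H : V →+ V)
    (hU : ∀ v, U (U (U (U (U v)))) = v) (hfix : ∀ v, U v = v → v = 0) (hHU : ∀ v, H (U v) = U (U (H v)))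
    {a b : V} (ha : H a = a) (hb : H b = b) (ha0 : a ≠ 0) (hb0 : b ≠ 0) : a = b := by
  classical
  let _ : Module (ZMod 2) V := AddCommGroup.zmodModule h2
  have hsum : a + U a + U (U a) + U (U (U a)) + U (U (U (U a))) = 0 := by
    apply hfix
    simp only [map_add, hU]
    abel
  -- the map
  let v : Fin 5 → V := ![a, U a, U (U a), U (U (U a)), U (U (U (U a)))]
  let π : (Fin 5 → ZMod 2) →ₗ[ZMod 2] V := Fintype.linearCombination (ZMod 2) v
  have hπ : ∀ ε, π ε = ε 0 • a + ε 1 • U a + ε 2 • U (U a) + ε 3 • U (U (U a)) + ε 4 • U (U (U (U a))) := by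
    intro ε
    show Fintype.linearCombination (ZMod 2) v ε = _
    rw [Fintype.linearCombination_apply, Fin.sum_univ_five]
    rfl
  have hz : ∀ (W : V →+ V) (c : ZMod 2) (x : V), W (c • x) = c • W x := fun W c x =>
    (W.toZModLinearMap 2).map_smul c x
  -- the range is invariant
  have hinv : ∀ x ∈ LinearMap.range π, U x ∈ LinearMap.range π := by
    rintro _ ⟨ε, rfl⟩
    refine ⟨![ε 4, ε 0, ε 1, ε 2, ε 3], ?_⟩
    rw [hπ, hπ]
    simp only [map_add, hz, hU]
    show ε 4 • a + ε 0 • U a + ε 1 • U (U a) + ε 2 • U (U (U a)) + ε 3 • U (U (U (U a))) = _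
    abel
  have ha' : a ∈ LinearMap.range π := by
    refine ⟨![1, 0, 0, 0, 0], ?_⟩
    rw [hπ]
    show (1 : ZMod 2) • a + (0 : ZMod 2) • U a + (0 : ZMod 2) • U (U a) + (0 : ZMod 2) • U (U (U a)) +
      (0 : ZMod 2) • U (U (U (U a))) = a
    simp
  -- counting
  have hcard : Nat.card (LinearMap.range π) ≡ 1 [MOD 5] := by
    let g : Function.End (LinearMap.range π) := fun x => ⟨U x.1, hinv x.1 x.2⟩
    have hg : g ^ 5 ^ 1 = 1 := by
      funext x
      apply Subtype.ext
      exact hU x.1
    have : Fact (Nat.Prime 5) := ⟨by norm_num⟩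
    have : Fintype (LinearMap.range π) := Fintype.ofFinite _
    have h3 := Equiv.Perm.card_fixedPoints_modEq hg
    have h4 : ∀ i : Fintype (Function.fixedPoints g), @Fintype.card (Function.fixedPoints g) i = 1 := by
      intro i
      rw [Fintype.card_eq_one_iff]
      refine ⟨⟨0, ?_⟩, ?_⟩
      · show g 0 = 0
        apply Subtype.ext
        exact map_zero U
      · rintro ⟨x, hx⟩
        apply Subtype.ext
        apply Subtype.ext
        have h5 : g x = x := hx
        exact hfix _ (congrArg Subtype.val h5)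
    rw [h4] at h3
    rwa [Nat.card_eq_fintype_card]
  have hdvd : Nat.card (LinearMap.range π) ∣ 16 := by
    rw [← h16]
    exact AddSubgroup.card_addSubgroup_dvd_card (LinearMap.range π).toAddSubgroup
  have hne : Nat.card (LinearMap.range π) ≠ 1 := by
    intro h
    have := (Nat.card_eq_one_iff_unique.1 h).1
    have h3 : (⟨a, ha'⟩ : LinearMap.range π) = 0 := Subsingleton.elim _ _
    exact ha0 (congrArg Subtype.val h3)
  have hcr : Nat.card (LinearMap.range π) = 16 := by
    have h1 : Nat.card (LinearMap.range π) ∣ 2 ^ 4 := by norm_num; exact hdvd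
    obtain ⟨i, hi, h2⟩ := (Nat.dvd_prime_pow Nat.prime_two).1 h1
    rw [h2] at hcard hne ⊢
    interval_cases i
    · exact absurd rfl hne
    · exact absurd hcard (by decide)
    · exact absurd hcard (by decide)
    · exact absurd hcard (by decide)
    · rfl
  have htop : ∀ x, x ∈ LinearMap.range π := by
    have h3 : (LinearMap.range π).toAddSubgroup = ⊤ := AddSubgroup.eq_top_of_card_eq _ (by rw [h16]; exact hcr)
    intro x
    have h4 : x ∈ (LinearMap.range π).toAddSubgroup := by rw [h3]; trivial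
    exact h4
  -- the kernel
  have hker : Module.finrank (ZMod 2) (LinearMap.ker π) = 1 := by
    have h3 := LinearMap.finrank_range_add_finrank_ker π
    have h4 := Module.natCard_eq_pow_finrank (K := ZMod 2) (V := LinearMap.range π)
    rw [hcr, Nat.card_zmod] at h4
    have h5 : Module.finrank (ZMod 2) (LinearMap.range π) = 4 :=
      Nat.pow_right_injective (le_refl 2) (h4.symm.trans (by norm_num : 16 = 2 ^ 4))
    rw [h5, Module.finrank_fin_fun] at h3
    omega
  have hone : (fun _ => 1 : Fin 5 → ZMod 2) ∈ LinearMap.ker π := by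
    rw [LinearMap.mem_ker, hπ]
    simp only [one_smul]
    exact hsum
  have hkmem : ∀ ε ∈ LinearMap.ker π, ε = 0 ∨ ε = fun _ => 1 := by
    intro ε hε
    have hne1 : (⟨_, hone⟩ : LinearMap.ker π) ≠ 0 := by
      intro h
      have h3 : (fun _ => 1 : Fin 5 → ZMod 2) = 0 := congrArg Subtype.val h
      have h4 : (1 : ZMod 2) = 0 := congrFun h3 0
      exact absurd h4 (by decide)
    obtain ⟨c, hc⟩ := (finrank_eq_one_iff_of_nonzero' _ hne1).1 hker ⟨ε, hε⟩
    have hc' : ε = c • (fun _ => 1 : Fin 5 → ZMod 2) := (congrArg Subtype.val hc).symm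
    have h6 : ∀ c : ZMod 2, c = 0 ∨ c = 1 := by decide
    rcases h6 c with h7 | h7
    · left
      rw [hc', h7, zero_smul]
    · right
      rw [hc', h7, one_smul]
  obtain ⟨ε, hε⟩ := htop b
  have hH : H b = π ![ε 0, ε 3, ε 1, ε 4, ε 2] := by
    rw [← hε, hπ, hπ]
    simp only [map_add, hz, hHU, ha, hU]
    show _ = ε 0 • a + ε 3 • U a + ε 1 • U (U a) + ε 4 • U (U (U a)) + ε 2 • U (U (U (U a)))
    abel
  have hmem : ![ε 0, ε 3, ε 1, ε 4, ε 2] - ε ∈ LinearMap.ker π := by
    rw [LinearMap.mem_ker, map_sub, ← hH, hε, hb, sub_self]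
  rcases hkmem _ hmem with h3 | h3
  · have e1 := congrFun h3 1
    have e2 := congrFun h3 2
    have e3 := congrFun h3 3
    have e4 := congrFun h3 4
    have f1 : ε 3 - ε 1 = 0 := e1
    have f2 : ε 1 - ε 2 = 0 := e2
    have f3 : ε 4 - ε 3 = 0 := e3
    have f4 : ε 2 - ε 4 = 0 := e4
    have g3 : ε 3 = ε 1 := sub_eq_zero.1 f1
    have g2 : ε 2 = ε 1 := (sub_eq_zero.1 f2).symm
    have g4 : ε 4 = ε 1 := (sub_eq_zero.1 f3).trans g3
    rw [hπ, g3, g2, g4] at hε
    have h4 : b = (ε 0 - ε 1) • a := by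
      rw [← hε]
      have h5 : ε 1 • (a + U a + U (U a) + U (U (U a)) + U (U (U (U a)))) = 0 := by rw [hsum, smul_zero]
      rw [sub_smul, ← sub_eq_zero, ← h5]
      simp only [smul_add]
      abel
    have h6 : ∀ c : ZMod 2, c = 0 ∨ c = 1 := by decide
    rcases h6 (ε 0 - ε 1) with h7 | h7
    · rw [h7, zero_smul] at h4
      exact absurd h4 hb0
    · rw [h7, one_smul] at h4
      exact h4.symm
  · have e0 := congrFun h3 0
    have f0 : ε 0 - ε 0 = 1 := e0
    rw [sub_self] at f0
    exact absurd f0 (by decide)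

end Add

section Mul

/-- **the F-lemma** -/
theorem fix_unique {M : Type*} [CommGroup M] (h16 : Nat.card M = 16) (h2 : ∀ v : M, v ^ 2 = 1) (U H : M →* M)
    (hU : ∀ v, U (U (U (U (U v)))) = v) (hfix : ∀ v, U v = v → v = 1) (hHU : ∀ v, H (U v) = U (U (H v)))
    {a b : M} (ha : H a = a) (hb : H b = b) (ha0 : a ≠ 1) (hb0 : b ≠ 1) : a = b := by
  have hfin : Finite (Additive M) := Nat.finite_of_card_ne_zero (α := M) (by rw [h16]; norm_num)
  exact fix_unique_add (V := Additive M) h16 h2 (MonoidHom.toAdditive U) (MonoidHom.toAdditive H) hU hfix hHU ha hb ha0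
    hb0

end Mul

end Cfsg.Agent.H857.L5
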