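import Cfsg.Agent.H857.L5.NoTwo
import Cfsg.Agent.S1065

/-!
# S5923, M3: `f(SL₃(5))` normalises no nontrivial elementary abelian `r`-subgroup, `r ≥ 7` (helper857)
-/

set_option autoImplicit false
set_option linter.unusedSectionVars false

namespace Cfsg.Agent.H857.L5

open Subgroup Cfsg Cfsg.Lie Cfsg.Lie.ChevalleyDatum
open Cfsg.Agent.H865.L5

namespace NTw

open Cfsg.Agent.H858.L5 (vP)

/-- `|E₈(3)|` -/
def nE : ℕ := 18830052912953932311099032439972660332140886784940152038522449391826616580150109878711243949982163694448626420940800000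

/-- its factorization -/
def lE : List (ℕ × ℕ) := [(2, 30), (3, 120), (5, 5), (7, 4), (11, 4), (13, 4), (19, 1), (31, 1), (37, 1), (41, 2),
  (61, 2), (73, 2), (271, 1), (547, 1), (757, 1), (1093, 1), (1181, 1), (4561, 1), (6481, 1)]

theorem card_E : Nat.card G3 = nE := by
  rw [S1065.result (F := ZMod 3) (q := 3) (ZMod.card 3)]
  decide +kernel

theorem nE_eq : nE = (lE.map fun x => x.1 ^ x.2).prod := by decide +kernel

theorem not_pow_five {r : ℕ} (hr : r.Prime) (h7 : 7 ≤ r) : ¬ r ^ 5 ∣ nE := by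
  intro h5
  have h1 : r ∣ nE := (dvd_pow_self r (by norm_num)).trans h5
  rw [nE_eq, hr.prime.dvd_prod_iff] at h1
  obtain ⟨a, ha, hra⟩ := h1
  rw [List.mem_map] at ha
  obtain ⟨x, hx, rfl⟩ := ha
  have h2 : r ∣ x.1 := hr.dvd_of_dvd_pow hra
  have hs : ∀ n : ℕ, n = 2 ∨ n = 3 ∨ n = 5 → ¬ r ∣ n := by
    intro n hn hd
    have := Nat.le_of_dvd (by omega) hd
    omega
  simp only [lE, List.mem_cons, List.not_mem_nil, or_false] at hx
  rcases hx with rfl | rfl | rfl | rfl | rfl | rfl | rfl | rfl | rfl | rfl | rfl | rfl | rfl | rfl | rfl | rfl | rfl |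
    rfl | rfl
  · exact hs 2 (by simp) h2
  · exact hs 3 (by simp) h2
  · exact hs 5 (by simp) h2
  all_goals
    have h3 := (Nat.prime_dvd_prime_iff_eq hr (by norm_num)).1 h2
    subst h3
    revert h5
    decide +kernel

section Main

variable {f : SL35 →* G3} {R : Subgroup G3}

/-- the data of the argument -/
structure Dr (f : SL35 →* G3) (R : Subgroup G3) (r : ℕ) (d : Subgroup G3 → ℕ) : Prop where
  inj : Function.Injective f
  norm : f.range ≤ normalizer (R : Set G3)
  pr : r.Prime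
  two : IsPGroup r R
  lg : ∀ A : Subgroup G3, Nat.card ↥(R ⊓ centralizer (A : Set G3)) = r ^ d A

variable {r : ℕ} {d : Subgroup G3 → ℕ}

theorem Dr.map_le (D : Dr f R r d) (A : Subgroup SL35) : A.map f ≤ normalizer (R : Set G3) := by
  refine le_trans ?_ D.norm
  rintro _ ⟨x, -, rfl⟩
  exact ⟨x, rfl⟩

theorem Dr.d_conj (D : Dr f R r d) {A B : Subgroup SL35} {x : SL35} (h : A.map (MulAut.conj x).toMonoidHom = B) :
    d (A.map f) = d (B.map f) := by
  have h1 := card_conj (A := A.map f) (D.norm ⟨x, rfl⟩)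
  rw [← map_conj, h, D.lg, D.lg] at h1
  exact (Nat.pow_right_injective D.pr.two_le h1).symm

theorem Dr.cop (D : Dr f R r d) {F : Subgroup G3} (hF : ¬ r ∣ Nat.card F) : (Nat.card F).Coprime (Nat.card R) := by
  have : Fact (Nat.Prime r) := ⟨D.pr⟩
  obtain ⟨n, hn⟩ := (IsPGroup.iff_card).1 D.two
  rw [hn]
  exact Nat.Coprime.pow_right n ((D.pr.coprime_iff_not_dvd.2 hF).symm)

theorem Dr.solv (D : Dr f R r d) : Group.IsSolvable R := by
  have : Fact (Nat.Prime r) := ⟨D.pr⟩
  have h : Group.IsNilpotent R := D.two.isNilpotent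
  infer_instance

/-- Wielandt's formula in exponents -/
theorem Dr.sum_eq (D : Dr f R r d) {F Z : Subgroup SL35} {X : Option (ZMod 5) → Subgroup SL35} {n : ℕ}
    (hodd : ¬ r ∣ Nat.card F) (hZ : ∀ i, Z ≤ X i) (hX : ∀ i, X i ≤ F) (hn : ∀ i, Nat.card (X i) = n)
    (hu : ∀ g ∈ F, g ∉ Z → ∃ i, g ∈ X i ∧ ∀ j, g ∈ X j → j = i) :
    n * ∑ i, d ((X i).map f) = Nat.card F * d (F.map f) + 5 * (Nat.card Z * d (Z.map f)) := by
  have h := wiel (R := R) (F := F.map f) (Z := Z.map f) (fun i => (X i).map f) (D.map_le F)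
    (D.cop (by rw [card_map' D.inj]; exact hodd)) D.solv (fun i => Subgroup.map_mono (hZ i))
    (fun i => Subgroup.map_mono (hX i)) (unique_map D.inj hu)
  have e : ∀ i, Nat.card ↥(R ⊓ centralizer ((X i).map f : Set G3)) ^ Nat.card ((X i).map f) =
      r ^ (n * d ((X i).map f)) := by
    intro i
    rw [D.lg, card_map' D.inj, hn, ← pow_mul, mul_comm]
  simp only [e] at h
  rw [Finset.prod_pow_eq_pow_sum, D.lg, D.lg, card_map' D.inj, card_map' D.inj, ← pow_mul, ← pow_mul, ← pow_mul,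
    ← pow_add, ← Finset.mul_sum] at h
  have h1 := Nat.pow_right_injective D.pr.two_le h
  rw [h1]
  ring

end Main

end NTw

open NTw
open Cfsg.Agent.H858.L5 (vP)

/-- **M3** -/
theorem no_large {f : SL35 →* G3} (h : GoodIn ⊤ f) (hf : Function.Injective f) {R : Subgroup G3}
    (hR : R ≠ ⊥) {r : ℕ} (hr : r.Prime) (h7 : 7 ≤ r) (h5 : ∀ x ∈ R, x ^ r = 1)
    (_hab : ∀ x ∈ R, ∀ y ∈ R, x * y = y * x)
    (hn : f.range ≤ Subgroup.normalizer (R : Set G3)) : False := by
  have hfin : Finite G3 := inferInstance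
  have hRf : Finite R := inferInstance
  have : Fact r.Prime := ⟨hr⟩
  have hp : IsPGroup r R := fun x => ⟨1, Subtype.ext (by rw [pow_one]; exact h5 x x.2)⟩
  have hlg : ∀ A : Subgroup G3, ∃ n, Nat.card ↥(R ⊓ centralizer (A : Set G3)) = r ^ n := fun A =>
    (IsPGroup.iff_card).1 (hp.to_le inf_le_left)
  choose d hd using hlg
  have D : Dr f R r d := ⟨hf, hn, hr, hp, hd⟩
  have c25 : ¬ r ∣ Nat.card vP := by
    rw [H858.L5.card_vP]
    intro h25
    have h1 : r ∣ 5 := hr.dvd_of_dvd_pow (n := 2) (by norm_num; exact h25)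
    have := Nat.le_of_dvd (by norm_num) h1
    omega
  obtain ⟨m, hm⟩ : ∃ m, m = d ((⊥ : Subgroup SL35).map f) := ⟨_, rfl⟩
  obtain ⟨c, hc⟩ : ∃ c, c = d (z5.map f) := ⟨_, rfl⟩
  obtain ⟨m0, hm0⟩ : ∃ c, c = d (vP.map f) := ⟨_, rfl⟩
  have hmR : Nat.card R = r ^ m := by
    have h1 := hd ((⊥ : Subgroup SL35).map f)
    rw [← hm] at h1
    rw [← h1]
    congr 2
    rw [Subgroup.map_bot]
    ext x
    constructor
    · intro hx
      refine ⟨hx, ?_⟩
      show x ∈ centralizer (((⊥ : Subgroup G3)) : Set G3)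
      rw [mem_centralizer_iff]
      intro y hy
      have e : y = 1 := hy
      rw [e, one_mul, mul_one]
    · intro hx
      exact hx.1
  have hm4 : m ≤ 4 := by
    by_contra hcon
    have h1 : r ^ 5 ∣ nE := by
      rw [← card_E]
      refine dvd_trans ?_ (Subgroup.card_subgroup_dvd_card R)
      rw [hmR]
      exact pow_dvd_pow r (by omega)
    exact not_pow_five hr h7 h1
  have eP := D.sum_eq (F := vP) (Z := ⊥) (X := lP) c25 (fun i => bot_le) lP_le card_lP lP_unique
  have kP : ∀ i, d ((lP i).map f) = c := fun i => by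
    obtain ⟨x, hx⟩ := lP_conj i
    rw [D.d_conj hx, hc]
  have hcO : Fintype.card (Option (ZMod 5)) = 6 := rfl
  rw [Finset.sum_congr rfl fun i _ => kP i, Finset.sum_const, Finset.card_univ, hcO, H858.L5.card_vP, card_bot, ← hm0,
    ← hm, smul_eq_mul] at eP
  have hmono : m0 ≤ m := by
    have h1 : R ⊓ centralizer ((vP.map f : Subgroup G3) : Set G3) ≤ R := inf_le_left
    have h2 := card_dvd_of_le h1
    rw [hd, ← hm0, hmR] at h2
    exact (Nat.pow_dvd_pow_iff_le_right hr.one_lt).1 h2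
  have hmm : m0 = m := by omega
  -- `f(VP)` centralises `R`
  have hRP : R ⊓ centralizer ((vP.map f : Subgroup G3) : Set G3) = R := by
    refine eq_of_le_of_card_ge inf_le_left ?_
    rw [hd, ← hm0, hmm, hmR]
  have hker : ((Subgroup.centralizer (R : Set G3)).comap f).Normal := by
    refine ⟨fun x hx y => ?_⟩
    rw [mem_comap] at hx ⊢
    rw [mem_centralizer_iff] at hx ⊢
    intro z hz
    have h1 : (f y)⁻¹ * z * f y ∈ R := (mem_normalizer_iff''.1 (hn ⟨y, rfl⟩) z).1 hz
    have h2 := hx _ h1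
    rw [map_mul, map_mul, map_inv]
    calc z * (f y * f x * (f y)⁻¹) = f y * ((f y)⁻¹ * z * f y * f x) * (f y)⁻¹ := by group
      _ = f y * f x * (f y)⁻¹ * z := by rw [h2]; group
  have hsimple := H858.L5.simple_SL
  rcases hker.eq_bot_or_eq_top with h1 | h1
  · have h2 : us 0 1 0 ∈ (Subgroup.centralizer (R : Set G3)).comap f := by
      rw [mem_comap, mem_centralizer_iff]
      intro z hz
      have h3 : z ∈ R ⊓ centralizer ((vP.map f : Subgroup G3) : Set G3) := by rw [hRP]; exact hz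
      have h4 : z ∈ centralizer ((vP.map f : Subgroup G3) : Set G3) := h3.2
      exact (mem_centralizer_iff.1 h4 (f (us 0 1 0)) ⟨_, lP_le none z5_mem, rfl⟩).symm
    rw [h1, mem_bot] at h2
    exact us_ne h2
  · apply hR
    rw [eq_bot_iff]
    intro g hg
    have hg3 : ∀ x, g * f x = f x * g := by
      intro x
      have h2 : x ∈ (Subgroup.centralizer (R : Set G3)).comap f := by rw [h1]; exact mem_top x
      rw [mem_comap, mem_centralizer_iff] at h2
      exact h2 g hg
    obtain ⟨s, ⟨x, y, z, rfl⟩, e⟩ := h.centS g trivial (fun s hs => hg3 s)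
    have h3 : g ^ r = 1 := h5 g hg
    have h6 : g ^ 5 = 1 := by rw [e, ← map_pow, us_pow_five', map_one]
    rw [mem_bot]
    have h8 : orderOf g ∣ r := orderOf_dvd_of_pow_eq_one h3
    have h9 : orderOf g ∣ 5 := orderOf_dvd_of_pow_eq_one h6
    rw [← orderOf_eq_one_iff]
    rcases (Nat.dvd_prime hr).1 h8 with h10 | h10
    · exact h10
    · rw [h10] at h9
      have := Nat.le_of_dvd (by norm_num) h9
      omega

end Cfsg.Agent.H857.L5
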