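import Cfsg.Agent.H857.L5.Wiel
import Cfsg.Agent.H858.L5.SlB
import Cfsg.Agent.H975.L5.M12

/-!
# S5923, M4: `f(SL₃(5))` normalises no nontrivial elementary abelian 2-subgroup (helper857)
-/

set_option autoImplicit false
set_option linter.unusedSectionVars false

namespace Cfsg.Agent.H857.L5

open Subgroup Cfsg Cfsg.Lie Cfsg.Lie.ChevalleyDatum
open Cfsg.Agent.H865.L5

namespace NTw

open Cfsg.Agent.H858.L5 (us_mul us_inv us_inj us_zero vp_eq vl_eq uS vP vL card_uS card_vP card_vL)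

/-- the points of the projective line -/
def on : Option (ZMod 5) → ZMod 5 → ZMod 5 → Prop
  | none, a, _ => a = 0
  | some l, a, c => c = l * a

instance decOn : ∀ (i : Option (ZMod 5)) (a c : ZMod 5), Decidable (on i a c)
  | none, a, _ => inferInstanceAs (Decidable (a = 0))
  | some l, a, c => inferInstanceAs (Decidable (c = l * a))

theorem on_zero (i : Option (ZMod 5)) : on i 0 0 := by
  cases i with
  | none => rfl
  | some l => exact (mul_zero l).symm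

theorem on_add {i : Option (ZMod 5)} {a c a' c' : ZMod 5} (h : on i a c) (h' : on i a' c') : on i (a + a') (c + c') := by
  cases i with
  | none =>
    have e : a = 0 := h
    have e' : a' = 0 := h'
    show a + a' = 0
    rw [e, e', add_zero]
  | some l =>
    have e : c = l * a := h
    have e' : c' = l * a' := h'
    show c + c' = l * (a + a')
    rw [e, e', mul_add]

theorem on_neg {i : Option (ZMod 5)} {a c : ZMod 5} (h : on i a c) : on i (-a) (-c) := by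
  cases i with
  | none =>
    have e : a = 0 := h
    show -a = 0
    rw [e, neg_zero]
  | some l =>
    have e : c = l * a := h
    show -c = l * -a
    rw [e, mul_neg]

theorem on_unique : ∀ a c : ZMod 5, ¬ (a = 0 ∧ c = 0) → ∃ i, on i a c ∧ ∀ j, on j a c → j = i := by decide

theorem on_pt : ∀ i : Option (ZMod 5), ∃ a c : ZMod 5, on i a c ∧ ¬ (a = 0 ∧ c = 0) := by decide

theorem card_on : ∀ i : Option (ZMod 5), Fintype.card {p : ZMod 5 × ZMod 5 // on i p.1 p.2} = 5 := by decide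

/-- the subgroups of order 5 of `VP` -/
def lP (i : Option (ZMod 5)) : Subgroup SL35 where
  carrier := {g | ∃ a b, g = us a b 0 ∧ on i a b}
  one_mem' := ⟨0, 0, us_zero.symm, on_zero i⟩
  mul_mem' := by
    rintro _ _ ⟨a, b, rfl, h⟩ ⟨a', b', rfl, h'⟩
    refine ⟨a + a', b + b', ?_, on_add h h'⟩
    rw [us_mul, us_inj]
    exact ⟨rfl, by ring, by ring⟩
  inv_mem' := by
    rintro _ ⟨a, b, rfl, h⟩
    refine ⟨-a, -b, ?_, on_neg h⟩
    rw [us_inv, us_inj]
    exact ⟨rfl, by ring, by ring⟩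

/-- the subgroups of order 5 of `VL` -/
def lL (i : Option (ZMod 5)) : Subgroup SL35 where
  carrier := {g | ∃ a b, g = us 0 a b ∧ on i a b}
  one_mem' := ⟨0, 0, us_zero.symm, on_zero i⟩
  mul_mem' := by
    rintro _ _ ⟨a, b, rfl, h⟩ ⟨a', b', rfl, h'⟩
    refine ⟨a + a', b + b', ?_, on_add h h'⟩
    rw [us_mul, us_inj]
    exact ⟨by ring, by ring, rfl⟩
  inv_mem' := by
    rintro _ ⟨a, b, rfl, h⟩
    refine ⟨-a, -b, ?_, on_neg h⟩
    rw [us_inv, us_inj]
    exact ⟨by ring, by ring, rfl⟩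

/-- the subgroups of order 25 of `US` -/
def l2 (i : Option (ZMod 5)) : Subgroup SL35 where
  carrier := {g | ∃ a b c, g = us a b c ∧ on i a c}
  one_mem' := ⟨0, 0, 0, us_zero.symm, on_zero i⟩
  mul_mem' := by
    rintro _ _ ⟨a, b, c, rfl, h⟩ ⟨a', b', c', rfl, h'⟩
    exact ⟨_, _, _, us_mul _ _ _ _ _ _, on_add h h'⟩
  inv_mem' := by
    rintro _ ⟨a, b, c, rfl, h⟩
    exact ⟨_, _, _, us_inv _ _ _, on_neg h⟩

theorem card_lP (i : Option (ZMod 5)) : Nat.card (lP i) = 5 := by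
  let f : {p : ZMod 5 × ZMod 5 // on i p.1 p.2} → lP i := fun p => ⟨us p.1.1 p.1.2 0, ⟨_, _, rfl, p.2⟩⟩
  have hf : Function.Bijective f := by
    constructor
    · rintro ⟨⟨a, b⟩, h⟩ ⟨⟨a', b'⟩, h'⟩ h2
      have h1 := us_inj.1 (congrArg Subtype.val h2)
      exact Subtype.ext (Prod.ext h1.1 h1.2.1)
    · rintro ⟨_, a, b, rfl, h⟩
      exact ⟨⟨(a, b), h⟩, rfl⟩
  rw [← Nat.card_congr (Equiv.ofBijective f hf), Nat.card_eq_fintype_card, card_on]

theorem card_lL (i : Option (ZMod 5)) : Nat.card (lL i) = 5 := by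
  let f : {p : ZMod 5 × ZMod 5 // on i p.1 p.2} → lL i := fun p => ⟨us 0 p.1.1 p.1.2, ⟨_, _, rfl, p.2⟩⟩
  have hf : Function.Bijective f := by
    constructor
    · rintro ⟨⟨a, b⟩, h⟩ ⟨⟨a', b'⟩, h'⟩ h2
      have h1 := us_inj.1 (congrArg Subtype.val h2)
      exact Subtype.ext (Prod.ext h1.2.1 h1.2.2)
    · rintro ⟨_, a, b, rfl, h⟩
      exact ⟨⟨(a, b), h⟩, rfl⟩
  rw [← Nat.card_congr (Equiv.ofBijective f hf), Nat.card_eq_fintype_card, card_on]

theorem card_l2 (i : Option (ZMod 5)) : Nat.card (l2 i) = 25 := by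
  let f : {p : ZMod 5 × ZMod 5 // on i p.1 p.2} × ZMod 5 → l2 i := fun p =>
    ⟨us p.1.1.1 p.2 p.1.1.2, ⟨_, _, _, rfl, p.1.2⟩⟩
  have hf : Function.Bijective f := by
    constructor
    · rintro ⟨⟨⟨a, b⟩, h⟩, c⟩ ⟨⟨⟨a', b'⟩, h'⟩, c'⟩ h2
      have h1 := us_inj.1 (congrArg Subtype.val h2)
      exact Prod.ext (Subtype.ext (Prod.ext h1.1 h1.2.2)) h1.2.1
    · rintro ⟨_, a, b, c, rfl, h⟩
      exact ⟨(⟨(a, c), h⟩, b), rfl⟩
  rw [← Nat.card_congr (Equiv.ofBijective f hf), Nat.card_prod, Nat.card_eq_fintype_card, card_on, Nat.card_zmod]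

theorem l2_none : l2 none = vL := by
  ext g
  constructor
  · rintro ⟨a, b, c, rfl, h⟩
    have e : a = 0 := h
    exact ⟨b, c, by rw [e, vl_eq]⟩
  · rintro ⟨b, c, rfl⟩
    exact ⟨0, b, c, vl_eq _ _, rfl⟩

theorem l2_zero : l2 (some 0) = vP := by
  ext g
  constructor
  · rintro ⟨a, b, c, rfl, h⟩
    have e : c = 0 * a := h
    exact ⟨a, b, by rw [e, zero_mul, vp_eq]⟩
  · rintro ⟨a, b, rfl⟩
    exact ⟨a, b, 0, vp_eq _ _, (zero_mul a).symm⟩

/-- the centre of `US` -/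
def z5 : Subgroup SL35 := lP none

theorem card_z5 : Nat.card z5 = 5 := card_lP none

theorem mem_z5 {g : SL35} : g ∈ z5 ↔ ∃ b, g = us 0 b 0 := by
  constructor
  · rintro ⟨a, b, rfl, h⟩
    have e : a = 0 := h
    exact ⟨b, by rw [e]⟩
  · rintro ⟨b, rfl⟩
    exact ⟨0, b, rfl, rfl⟩

theorem z5_comm {g z : SL35} (hg : g ∈ US) (hz : z ∈ z5) : g * z = z * g := by
  obtain ⟨a, b, c, rfl⟩ := hg
  obtain ⟨b', rfl⟩ := mem_z5.1 hz
  rw [us_mul, us_mul, us_inj]
  exact ⟨by ring, by ring, by ring⟩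

theorem z5_mem : us 0 1 0 ∈ z5 := mem_z5.2 ⟨1, rfl⟩

theorem us_ne : us 0 1 0 ≠ 1 := by
  rw [← us_zero]
  intro h
  exact one_ne_zero (us_inj.1 h).2.1

theorem us_pow_five' (a b c : ZMod 5) : us a b c ^ 5 = 1 := by
  have h5 : (5 : ZMod 5) = 0 := rfl
  rw [pow_succ, pow_succ, pow_succ, pow_succ, pow_one, us_mul, us_mul, us_mul, us_mul, ← us_zero, us_inj]
  exact ⟨by linear_combination a * h5, by linear_combination (b + 2 * a * c) * h5, by linear_combination c * h5⟩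

theorem lP_le (i : Option (ZMod 5)) : lP i ≤ vP := by
  rintro _ ⟨a, b, rfl, -⟩
  exact ⟨a, b, (vp_eq _ _).symm⟩

theorem lL_le (i : Option (ZMod 5)) : lL i ≤ vL := by
  rintro _ ⟨a, b, rfl, -⟩
  exact ⟨a, b, (vl_eq _ _).symm⟩

theorem l2_le (i : Option (ZMod 5)) : l2 i ≤ uS := by
  rintro _ ⟨a, b, c, rfl, -⟩
  exact ⟨a, b, c, rfl⟩

theorem z5_le (i : Option (ZMod 5)) : z5 ≤ l2 i := by
  intro g hg
  obtain ⟨b, rfl⟩ := mem_z5.1 hg
  exact ⟨0, b, 0, rfl, on_zero i⟩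

theorem lP_unique : ∀ g ∈ vP, g ∉ (⊥ : Subgroup SL35) → ∃ i, g ∈ lP i ∧ ∀ j, g ∈ lP j → j = i := by
  rintro _ ⟨a, b, rfl⟩ hg
  have h : ¬ (a = 0 ∧ b = 0) := by
    rintro ⟨rfl, rfl⟩
    exact hg (mem_bot.2 (by rw [vp_eq, us_zero]))
  obtain ⟨i, hi, hi2⟩ := on_unique a b h
  refine ⟨i, ⟨a, b, vp_eq _ _, hi⟩, ?_⟩
  rintro j ⟨a', b', e, hj⟩
  rw [vp_eq, us_inj] at e
  obtain ⟨rfl, rfl, -⟩ := e
  exact hi2 j hj

theorem lL_unique : ∀ g ∈ vL, g ∉ (⊥ : Subgroup SL35) → ∃ i, g ∈ lL i ∧ ∀ j, g ∈ lL j → j = i := by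
  rintro _ ⟨a, b, rfl⟩ hg
  have h : ¬ (a = 0 ∧ b = 0) := by
    rintro ⟨rfl, rfl⟩
    exact hg (mem_bot.2 (by rw [vl_eq, us_zero]))
  obtain ⟨i, hi, hi2⟩ := on_unique a b h
  refine ⟨i, ⟨a, b, vl_eq _ _, hi⟩, ?_⟩
  rintro j ⟨a', b', e, hj⟩
  rw [vl_eq, us_inj] at e
  obtain ⟨-, rfl, rfl⟩ := e
  exact hi2 j hj

theorem l2_unique : ∀ g ∈ uS, g ∉ z5 → ∃ i, g ∈ l2 i ∧ ∀ j, g ∈ l2 j → j = i := by
  rintro _ ⟨a, b, c, rfl⟩ hg
  have h : ¬ (a = 0 ∧ c = 0) := by
    rintro ⟨rfl, rfl⟩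
    exact hg (mem_z5.2 ⟨b, rfl⟩)
  obtain ⟨i, hi, hi2⟩ := on_unique a c h
  refine ⟨i, ⟨a, b, c, rfl, hi⟩, ?_⟩
  rintro j ⟨a', b', c', e, hj⟩
  rw [us_inj] at e
  obtain ⟨rfl, -, rfl⟩ := e
  exact hi2 j hj

/-- all subgroups `lP i` are conjugate to the centre -/
theorem lP_conj (i : Option (ZMod 5)) : ∃ x : SL35, (lP i).map (MulAut.conj x).toMonoidHom = z5 := by
  obtain ⟨a, b, h, h0⟩ := on_pt i
  obtain ⟨c, d, hcd⟩ : ∃ c d : ZMod 5, c * b - d * a = 1 := by
    clear h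
    revert h0
    revert a b
    decide
  let x : SL35 := ⟨!![1, 0, 0; 0, c, d; 0, a, b], by rw [Matrix.det_fin_three]; simp; linear_combination hcd⟩
  have hx : x * us a b 0 = us 0 1 0 * x := by
    apply Subtype.ext
    show (!![1, 0, 0; 0, c, d; 0, a, b] : Matrix (Fin 3) (Fin 3) (ZMod 5)) * !![1, a, b; 0, 1, 0; 0, 0, 1] =
      !![1, 0, 1; 0, 1, 0; 0, 0, 1] * !![1, 0, 0; 0, c, d; 0, a, b]
    ext i j
    fin_cases i <;> fin_cases j <;> simp [Matrix.mul_apply, Fin.sum_univ_three]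
  refine ⟨x, eq_of_five ?_ (card_lP none) (g := us 0 1 0) ?_ z5_mem us_ne⟩
  · exact (Nat.card_congr (Subgroup.equivMapOfInjective _ _ (MulAut.conj x).injective).symm.toEquiv).trans (card_lP i)
  · refine ⟨us a b 0, ⟨a, b, rfl, h⟩, ?_⟩
    show x * us a b 0 * x⁻¹ = _
    rw [hx, mul_inv_cancel_right]

/-- all subgroups `lL i` are conjugate to the centre -/
theorem lL_conj (i : Option (ZMod 5)) : ∃ x : SL35, (lL i).map (MulAut.conj x).toMonoidHom = z5 := by
  obtain ⟨a, b, h, h0⟩ := on_pt i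
  obtain ⟨c, d, hcd⟩ : ∃ c d : ZMod 5, c * a + d * b = 1 := by
    clear h
    revert h0
    revert a b
    decide
  let x : SL35 := ⟨!![c, d, 0; -b, a, 0; 0, 0, 1], by rw [Matrix.det_fin_three]; simp; linear_combination hcd⟩
  have hx : x * us 0 a b = us 0 1 0 * x := by
    apply Subtype.ext
    show (!![c, d, 0; -b, a, 0; 0, 0, 1] : Matrix (Fin 3) (Fin 3) (ZMod 5)) * !![1, 0, a; 0, 1, b; 0, 0, 1] =
      !![1, 0, 1; 0, 1, 0; 0, 0, 1] * !![c, d, 0; -b, a, 0; 0, 0, 1]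
    ext i j
    fin_cases i <;> fin_cases j <;> simp [Matrix.mul_apply, Fin.sum_univ_three]
    · linear_combination hcd
    · ring
  refine ⟨x, eq_of_five ?_ (card_lP none) (g := us 0 1 0) ?_ z5_mem us_ne⟩
  · exact (Nat.card_congr (Subgroup.equivMapOfInjective _ _ (MulAut.conj x).injective).symm.toEquiv).trans (card_lL i)
  · refine ⟨us 0 a b, ⟨a, b, rfl, h⟩, ?_⟩
    show x * us 0 a b * x⁻¹ = _
    rw [hx, mul_inv_cancel_right]

/-- the four other subgroups of order 25 are conjugate -/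
theorem l2_conj {c d : ZMod 5} (hc : c ≠ 0) (hd : d ≠ 0) :
    ∃ x : SL35, (l2 (some c)).map (MulAut.conj x).toMonoidHom = l2 (some d) := by
  obtain ⟨h, hh⟩ := Cfsg.Agent.H858.L5.six_conj hc hd
  refine ⟨h, eq_of_le_of_card_ge ?_ ?_⟩
  · rintro _ ⟨_, ⟨a, b, e, rfl, he⟩, rfl⟩
    have he' : e = c * a := he
    obtain ⟨a', b', h1⟩ := hh a b
    refine ⟨a', b', d * a', ?_, rfl⟩
    rw [he']
    exact h1
  · rw [card_l2, ← card_l2 (some c)]
    exact (Nat.card_congr (Subgroup.equivMapOfInjective _ _ (MulAut.conj h).injective).toEquiv).le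

/-! ### The action on `R` -/

section Map

variable {S G : Type*} [Group S] [Group G] {f : S →* G}

theorem unique_map (hf : Function.Injective f) {F Z : Subgroup S} {ι : Type*} {X : ι → Subgroup S}
    (hu : ∀ g ∈ F, g ∉ Z → ∃ i, g ∈ X i ∧ ∀ j, g ∈ X j → j = i) :
    ∀ g ∈ F.map f, g ∉ Z.map f → ∃ i, g ∈ (X i).map f ∧ ∀ j, g ∈ (X j).map f → j = i := by
  rintro _ ⟨g, hg, rfl⟩ hgZ
  obtain ⟨i, hi, hi2⟩ := hu g hg (fun h => hgZ ⟨g, h, rfl⟩)
  refine ⟨i, ⟨g, hi, rfl⟩, ?_⟩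
  rintro j ⟨g', hg', e⟩
  rw [hf e] at hg'
  exact hi2 j hg'

theorem card_map' (hf : Function.Injective f) (A : Subgroup S) : Nat.card (A.map f) = Nat.card A :=
  (Nat.card_congr (A.equivMapOfInjective f hf).toEquiv).symm

theorem map_conj (A : Subgroup S) (x : S) :
    (A.map (MulAut.conj x).toMonoidHom).map f = (A.map f).map (MulAut.conj (f x)).toMonoidHom := by
  rw [Subgroup.map_map, Subgroup.map_map]
  congr 1
  ext y
  show f (x * y * x⁻¹) = f x * f y * (f x)⁻¹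
  rw [map_mul, map_mul, map_inv]

end Map

theorem odd_cop {F R : ℕ} {n : ℕ} (hR : R = 2 ^ n) (hF : ¬ 2 ∣ F) : F.Coprime R := by
  rw [hR]
  exact Nat.Coprime.pow_right n ((Nat.prime_two.coprime_iff_not_dvd.2 hF).symm)

section Main

variable {f : SL35 →* G3} {R : Subgroup G3}

/-- the data of the argument -/
structure Dt (f : SL35 →* G3) (R : Subgroup G3) (d : Subgroup G3 → ℕ) : Prop where
  inj : Function.Injective f
  norm : f.range ≤ normalizer (R : Set G3)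
  two : IsPGroup 2 R
  lg : ∀ A : Subgroup G3, Nat.card ↥(R ⊓ centralizer (A : Set G3)) = 2 ^ d A

variable {d : Subgroup G3 → ℕ}

theorem Dt.map_le (D : Dt f R d) (A : Subgroup SL35) : A.map f ≤ normalizer (R : Set G3) := by
  refine le_trans ?_ D.norm
  rintro _ ⟨x, -, rfl⟩
  exact ⟨x, rfl⟩

theorem Dt.d_conj (D : Dt f R d) {A B : Subgroup SL35} {x : SL35} (h : A.map (MulAut.conj x).toMonoidHom = B) :
    d (A.map f) = d (B.map f) := by
  have h1 := card_conj (A := A.map f) (D.norm ⟨x, rfl⟩)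
  rw [← map_conj, h, D.lg, D.lg] at h1
  exact (Nat.pow_right_injective le_rfl h1).symm

theorem Dt.cop (D : Dt f R d) {F : Subgroup G3} (hF : ¬ 2 ∣ Nat.card F) : (Nat.card F).Coprime (Nat.card R) := by
  have : Fact (Nat.Prime 2) := ⟨Nat.prime_two⟩
  obtain ⟨n, hn⟩ := (IsPGroup.iff_card).1 D.two
  exact odd_cop hn hF

theorem Dt.solv (D : Dt f R d) : Group.IsSolvable R := by
  have : Fact (Nat.Prime 2) := ⟨Nat.prime_two⟩
  have h : Group.IsNilpotent R := D.two.isNilpotent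
  infer_instance

/-- Wielandt's formula in exponents -/
theorem Dt.sum_eq (D : Dt f R d) {F Z : Subgroup SL35} {X : Option (ZMod 5) → Subgroup SL35} {n : ℕ}
    (hodd : ¬ 2 ∣ Nat.card F) (hZ : ∀ i, Z ≤ X i) (hX : ∀ i, X i ≤ F) (hn : ∀ i, Nat.card (X i) = n)
    (hu : ∀ g ∈ F, g ∉ Z → ∃ i, g ∈ X i ∧ ∀ j, g ∈ X j → j = i) :
    n * ∑ i, d ((X i).map f) = Nat.card F * d (F.map f) + 5 * (Nat.card Z * d (Z.map f)) := by
  have h := wiel (R := R) (F := F.map f) (Z := Z.map f) (fun i => (X i).map f) (D.map_le F)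
    (D.cop (by rw [card_map' D.inj]; exact hodd)) D.solv (fun i => Subgroup.map_mono (hZ i))
    (fun i => Subgroup.map_mono (hX i)) (unique_map D.inj hu)
  have e : ∀ i, Nat.card ↥(R ⊓ centralizer ((X i).map f : Set G3)) ^ Nat.card ((X i).map f) =
      2 ^ (n * d ((X i).map f)) := by
    intro i
    rw [D.lg, card_map' D.inj, hn, ← pow_mul, mul_comm]
  simp only [e] at h
  rw [Finset.prod_pow_eq_pow_sum, D.lg, D.lg, card_map' D.inj, card_map' D.inj, ← pow_mul, ← pow_mul, ← pow_mul,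
    ← pow_add, ← Finset.mul_sum] at h
  have h1 := Nat.pow_right_injective le_rfl h
  rw [h1]
  ring

theorem Dt.cong (D : Dt f R d) (i : Option (ZMod 5)) : d (z5.map f) % 4 = d ((l2 i).map f) % 4 := by
  have : Fact (Nat.Prime 5) := ⟨by norm_num⟩
  apply mod_four
  rw [← D.lg, ← D.lg]
  refine cong_five (IsPGroup.of_card (n := 2) ?_) (Subgroup.map_mono (z5_le i)) ?_ (D.map_le _)
  · rw [card_map' D.inj, card_l2]
    norm_num
  · have h1 : (l2 i).map f ≤ centralizer ((z5.map f : Subgroup G3) : Set G3) := by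
      rintro _ ⟨g, hg, rfl⟩
      rw [mem_centralizer_iff]
      rintro _ ⟨z, hz, rfl⟩
      have h2 : g * z = z * g := z5_comm (l2_le i hg) hz
      rw [← map_mul, ← map_mul, h2]
    exact h1.trans (Subgroup.centralizer_le_normalizer _)

end Main

end NTw

open NTw
open Cfsg.Agent.H858.L5 (uS vP vL)

/-- **M4** -/
theorem no_two {f : SL35 →* G3} (h : GoodIn ⊤ f) (hf : Function.Injective f) {R : Subgroup G3}
    (hR : R ≠ ⊥) (h2 : ∀ x ∈ R, x ^ 2 = 1)
    (hn : f.range ≤ Subgroup.normalizer (R : Set G3)) : False := by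
  have hfin : Finite G3 := inferInstance
  have hRf : Finite R := inferInstance
  have hp : IsPGroup 2 R := fun x => ⟨1, Subtype.ext (by rw [pow_one]; exact h2 x x.2)⟩
  obtain ⟨d, hd⟩ := exists_lg hp
  have D : Dt f R d := ⟨hf, hn, hp, hd⟩
  have c25 : ¬ 2 ∣ Nat.card vP := by rw [H858.L5.card_vP]; norm_num
  have c25' : ¬ 2 ∣ Nat.card vL := by rw [H858.L5.card_vL]; norm_num
  have c125 : ¬ 2 ∣ Nat.card uS := by rw [H858.L5.card_uS]; norm_num
  -- the exponents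
  obtain ⟨m, hm⟩ : ∃ m, m = d ((⊥ : Subgroup SL35).map f) := ⟨_, rfl⟩
  obtain ⟨c, hc⟩ : ∃ c, c = d (z5.map f) := ⟨_, rfl⟩
  obtain ⟨m0, hm0⟩ : ∃ c, c = d (vP.map f) := ⟨_, rfl⟩
  obtain ⟨m1, hm1⟩ : ∃ c, c = d (vL.map f) := ⟨_, rfl⟩
  obtain ⟨a, ha⟩ : ∃ c, c = d ((l2 (some 1)).map f) := ⟨_, rfl⟩
  have hmR : Nat.card R = 2 ^ m := by
    have h1 := hd ((⊥ : Subgroup SL35).map f)
    rw [← hm] at h1
    rw [← h1]
    congr 2
    rw [Subgroup.map_bot]
    ext x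
    constructor
    · intro hx
      refine ⟨hx, ?_⟩
      show x ∈ centralizer (((⊥ : Subgroup G3)) : Set G3)
      rw [mem_centralizer_iff]
      intro y hy
      have e : y = 1 := hy
      rw [e, one_mul, mul_one]
    · intro hx
      exact hx.1
  have hs : d (uS.map f) = 0 := by
    have h1 : R ⊓ centralizer ((uS.map f : Subgroup G3) : Set G3) = ⊥ := by
      rw [eq_bot_iff]
      rintro g ⟨hg1, hg2⟩
      have hg3 : g ∈ centralizer ((uS.map f : Subgroup G3) : Set G3) := hg2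
      obtain ⟨s, ⟨x, y, z, rfl⟩, e⟩ := h.centS g trivial (fun s hs => (mem_centralizer_iff.1 hg3 (f s) ⟨s, hs, rfl⟩).symm)
      have h3 : g ^ 2 = 1 := h2 g hg1
      have h5 : g ^ 5 = 1 := by rw [e, ← map_pow, us_pow_five', map_one]
      rw [mem_bot]
      have h4 : g ^ 5 = (g ^ 2) ^ 2 * g := by rw [← pow_mul, ← pow_succ]
      rw [h5, h3, one_pow, one_mul] at h4
      exact h4.symm
    have h2 := hd (uS.map f)
    rw [h1, card_bot] at h2
    by_contra hne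
    have h3 : 2 ∣ 2 ^ d (uS.map f) := dvd_pow_self 2 hne
    rw [← h2] at h3
    omega
  -- the planes
  have eP := D.sum_eq (F := vP) (Z := ⊥) (X := lP) c25 (fun i => bot_le) lP_le card_lP lP_unique
  have eL := D.sum_eq (F := vL) (Z := ⊥) (X := lL) c25' (fun i => bot_le) lL_le card_lL lL_unique
  have eU := D.sum_eq (F := uS) (Z := z5) (X := l2) c125 z5_le l2_le card_l2 l2_unique
  have kP : ∀ i, d ((lP i).map f) = c := fun i => by
    obtain ⟨x, hx⟩ := lP_conj i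
    rw [D.d_conj hx, hc]
  have kL : ∀ i, d ((lL i).map f) = c := fun i => by
    obtain ⟨x, hx⟩ := lL_conj i
    rw [D.d_conj hx, hc]
  have kU : ∀ l : ZMod 5, d ((l2 (some l)).map f) = if l = 0 then m0 else a := fun l => by
    by_cases hl : l = 0
    · rw [if_pos hl, hl, l2_zero, hm0]
    · rw [if_neg hl]
      obtain ⟨x, hx⟩ := l2_conj hl (one_ne_zero : (1 : ZMod 5) ≠ 0)
      rw [D.d_conj hx, ha]
  have hcO : Fintype.card (Option (ZMod 5)) = 6 := rfl
  rw [Finset.sum_congr rfl fun i _ => kP i, Finset.sum_const, Finset.card_univ, hcO, H858.L5.card_vP, card_bot, ← hm0,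
    ← hm, smul_eq_mul] at eP
  rw [Finset.sum_congr rfl fun i _ => kL i, Finset.sum_const, Finset.card_univ, hcO, H858.L5.card_vL, card_bot, ← hm1,
    ← hm, smul_eq_mul] at eL
  have hsum : ∑ l : ZMod 5, (if l = 0 then m0 else a) = m0 + 4 * a := by
    show ∑ l : Fin 5, (if l = 0 then m0 else a) = m0 + 4 * a
    rw [Fin.sum_univ_five]
    simp
    ring
  rw [Fintype.sum_option, Finset.sum_congr rfl fun i _ => kU i, hsum, l2_none, ← hm1, hs,
    card_z5, ← hc] at eU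
  have g0 := D.cong (some 0)
  have g1 := D.cong (some 1)
  rw [l2_zero, ← hm0, ← hc] at g0
  rw [← ha, ← hc] at g1
  -- the order
  have hcard : m ≤ 25 := by
    have hd1 : ∀ x, f x ∈ R → x = 1 := by
      intro x hx
      have := H858.L5.simple_SL
      rcases (H975.L5.comap_normal hn).eq_bot_or_eq_top with h1 | h1
      · have h2 : x ∈ R.comap f := hx
        rw [h1] at h2
        exact h2
      · exfalso
        have h3 : us 0 1 0 ∈ R.comap f := by rw [h1]; trivial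
        have h4 := h2 _ h3
        rw [← map_pow, ← map_one f] at h4
        have h5 := hf h4
        rw [pow_two, H858.L5.us_mul, ← H858.L5.us_zero, H858.L5.us_inj] at h5
        exact absurd h5.2.1 (by decide)
    have h1 := H975.L5.card_mul_dvd hn hd1
    rw [hmR, H858.L5.card_SL, S1065.result (F := ZMod 3) (ZMod.card 3)] at h1
    by_contra hcon
    push Not at hcon
    have h2 : 2 ^ 31 ∣ 2 ^ m * 372000 := by
      have h3 : 2 ^ 26 ∣ 2 ^ m := pow_dvd_pow 2 hcon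
      have h4 : 2 ^ 5 ∣ 372000 := by norm_num
      rw [show (2 : ℕ) ^ 31 = 2 ^ 26 * 2 ^ 5 by norm_num]
      exact Nat.mul_dvd_mul h3 h4
    have h3 := h2.trans h1
    revert h3
    norm_num
  have hm1' : m ≠ 0 := by
    intro h0
    rw [h0, pow_zero] at hmR
    exact hR (card_eq_one.1 hmR)
  clear c25 c25' c125 hmR
  have q1 : m1 = m0 := by omega
  have q2 : c = 2 * m0 + 4 * a := by omega
  have q3 : m = 7 * m0 + 24 * a := by omega
  have q4 : a ≤ 1 := by omega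
  have q5 : m0 ≤ 3 := by omega
  rw [q2] at g0 g1
  rw [q3] at hcard hm1'
  clear hm hc hm0 hm1 ha kP kL kU hsum eP eL eU q1 q2 q3
  interval_cases a <;> interval_cases m0 <;> omega

end Cfsg.Agent.H857.L5
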