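import Cfsg.Agent.H865.L5.Base
import Cfsg.Agent.H857.L5.Lin

/-!
# S5923, D1: a regular conjugate of `f VP` or of `f VL` in `T5 k` (helper857)

The facts of the sections S, A, B of the plan are hypotheses here (structures `SF`, `AF`).
-/

set_option autoImplicit false
set_option linter.unusedSectionVars false

namespace Cfsg.Agent.H857.L5

open CoxeterSystem Subgroup Cfsg Cfsg.Lie Cfsg.Lie.ChevalleyDatum
open Cfsg.Agent.ChevalleyStructure Cfsg.Agent.ChevalleyStructure.Elts Cfsg.Agent.ChevalleyStructure.CoxeterGeom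
  Cfsg.Agent.ChevalleyStructure.CoxeterGeomTypes Cfsg.Agent.ChevalleyStructure.NPerm
open Cfsg.Agent.Tits.Roots Cfsg.Agent.Tits.Core Cfsg.Agent.Nodes Cfsg.Agent.Nodes.SubComb Cfsg.Agent.Nodes.Reps
  Cfsg.Agent.Nodes.BNOf Cfsg.Agent.Nodes.RGDChev Cfsg.Agent.Nodes.Bruhat Cfsg.Agent.Nodes.Coroot
open Cfsg.Agent.KFacts.RgdField Cfsg.Agent.BpExc.TorCent Cfsg.Agent.BpExc.TorChev
open Cfsg.Agent.KFacts.RgdChevCoord hiding act
open Cfsg.Agent.GpExc.Field Cfsg.Agent.BpExc.Tow Cfsg.Agent.BpExc.TowChev Cfsg.Agent.BpExc.Fr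
  Cfsg.Agent.BpExc.LangFr Cfsg.Agent.BpExc.FamField Cfsg.Agent.BpExc.FamInst Cfsg.Agent.H129.TorusChar
  Cfsg.Agent.H795.LangT Cfsg.Agent.BpExc.FamExt Cfsg.Agent.BpExc.FamUntw Cfsg.Agent.H378.TorDual Cfsg.Agent.H378.TorChar
  Cfsg.Agent.H378.TorFin Cfsg.Agent.H378.RankOne Cfsg.Agent.H378.RootTor Cfsg.Agent.H865.EE Cfsg.Agent.H865.L5

attribute [local irreducible] w8

/-- the dual space of `F₅⁴` -/
abbrev DU := Module.Dual (ZMod 5) (Fin 4 → ZMod 5)

/-! ### The facts used -/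

/-- the facts on `SL₃(5)` used in this file -/
structure SF : Prop where
  eUS : ∃ A : Subgroup SL35, (A : Set SL35) = US ∧ Nat.card A = 125
  eVL : ∃ A : Subgroup SL35, (A : Set SL35) = VL ∧ Nat.card A = 25
  six : ∀ A : Subgroup SL35, (A : Set SL35) ⊆ US → Nat.card A = 25 →
    (A : Set SL35) = VP ∨ (A : Set SL35) = VL ∨ ∃ c : ZMod 5, c ≠ 0 ∧ (A : Set SL35) = {g | ∃ a b, g = us a b (c * a)}
  six_conj : ∀ c d : ZMod 5, c ≠ 0 → d ≠ 0 → ∃ h : SL35, ∀ a b, ∃ a' b',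
    h * us a b (c * a) * h⁻¹ = us a' b' (d * a')

/-- the facts on the torus used in this file -/
structure AF (k : Type) [Field k] [CharP k 3] [IsAlgClosed k] [PerfectRing k 3] (hk : LocFin k) : Prop where
  zeta : ∃ ζ : k, IsPrimitiveRoot ζ 5
  iso : ∀ ζ : k, IsPrimitiveRoot ζ 5 →
    ∃ e : DU → ↥(chevE8.group k), Function.Injective e ∧ Set.range e = T5 k ∧
      (∀ φ ψ, e (φ + ψ) = e φ * e ψ) ∧ ∀ φ x, cX tp8 (e φ) x = ζ ^ (φ (PP x)).val
  card : Nat.card ↥(T5 k) = 625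
  norm : ∀ y : ↥(chevE8.group k), y ∈ GT k → (∀ t ∈ T5 k, y * t * y⁻¹ ∈ T5 k) →
    ∃ v ∈ CW, Rp cs8 (nsysL tp8 cs8 hk 3) v y
  fin : Finite ↥(GT k)
  ndvd : ¬ 5 ^ 6 ∣ Nat.card ↥(GT k)

/-- the facts on `CW` used in this file -/
structure BF : Prop where
  sq_ne : ∀ u : W8, u ∈ CW → u ^ 5 = 1 → u ≠ 1 → ∀ a : Fin 8 → ℤ, Rt a →
    PP (act u (act u a)) - 2 • PP (act u a) + PP a ≠ 0
  fix_line : ∀ u : W8, u ∈ CW → u ^ 5 = 1 → u ≠ 1 → ∀ φ ψ : DU,
    (∀ x, φ (PP (act u x)) = φ (PP x)) → (∀ x, ψ (PP (act u x)) = ψ (PP x)) → φ ≠ 0 → ∃ c : ZMod 5, ψ = c • φ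

/-! ### Computations in `US` -/

theorem us_mul (a b c a' b' c' : ZMod 5) :
    us a b c * us a' b' c' = us (a + a') (b + b' + a * c') (c + c') := by
  apply Subtype.ext
  show !![1, a, b; 0, 1, c; 0, 0, 1] * !![1, a', b'; 0, 1, c'; 0, 0, 1] =
    !![1, a + a', b + b' + a * c'; 0, 1, c + c'; 0, 0, 1]
  ext i j
  fin_cases i <;> fin_cases j <;> simp [Matrix.mul_apply, Fin.sum_univ_three] <;> ring

theorem us_zero : us 0 0 0 = 1 := by
  apply Subtype.ext
  show !![1, 0, 0; 0, 1, 0; 0, 0, 1] = (1 : Matrix (Fin 3) (Fin 3) (ZMod 5))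
  ext i j
  fin_cases i <;> fin_cases j <;> rfl

theorem us_inj {a b c a' b' c' : ZMod 5} (h : us a b c = us a' b' c') : a = a' ∧ b = b' ∧ c = c' := by
  have h1 : !![1, a, b; 0, 1, c; 0, 0, 1] = !![1, a', b'; 0, 1, c'; 0, 0, 1] := congrArg Subtype.val h
  exact ⟨congrFun (congrFun h1 0) 1, congrFun (congrFun h1 0) 2, congrFun (congrFun h1 1) 2⟩

theorem five_zero : (5 : ZMod 5) = 0 := rfl

theorem us_pow_five (a b c : ZMod 5) : us a b c ^ 5 = 1 := by
  have h5 := five_zero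
  rw [pow_succ, pow_succ, pow_succ, pow_succ, pow_one, us_mul, us_mul, us_mul, us_mul, ← us_zero]
  have e1 : a + a + a + a + a = 0 := by linear_combination a * h5
  have e2 : c + c + c + c + c = 0 := by linear_combination c * h5
  have e3 : b + b + a * c + b + (a + a) * c + b + (a + a + a) * c + b + (a + a + a + a) * c = 0 := by
    linear_combination (b + 2 * a * c) * h5
  rw [e1, e2, e3]

theorem vl_eq (a b : ZMod 5) : vl a b = us 0 a b := rfl

theorem vp_eq (a b : ZMod 5) : vp a b = us a b 0 := rfl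

theorem us_zz_pow (n : ℕ) : us 0 0 1 ^ n = us 0 0 (n : ZMod 5) := by
  induction n with
  | zero => rw [pow_zero, Nat.cast_zero, us_zero]
  | succ n ih =>
    rw [pow_succ, ih, us_mul]
    simp

/-! ### The action of an element of order 5 on `T5 k` -/

section Act

variable {k : Type} [Field k] [CharP k 3] [IsAlgClosed k] [PerfectRing k 3] {hk : LocFin k}

theorem T5_comm {t t' : ↥(chevE8.group k)} (ht : t ∈ T5 k) (ht' : t' ∈ T5 k) : t * t' = t' * t :=
  TT_comm tp8 t ht.1.1 t' ht'.1.1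

theorem T5_mul {t t' : ↥(chevE8.group k)} (ht : t ∈ T5 k) (ht' : t' ∈ T5 k) : t * t' ∈ T5 k := by
  refine ⟨(AT k).mul_mem ht.1 ht'.1, ?_⟩
  have h : Commute t t' := T5_comm ht ht'
  rw [h.mul_pow, ht.2, ht'.2, one_mul]

theorem T5_one : (1 : ↥(chevE8.group k)) ∈ T5 k := ⟨(AT k).one_mem, one_pow _⟩

theorem T5_inv {t : ↥(chevE8.group k)} (ht : t ∈ T5 k) : t⁻¹ ∈ T5 k :=
  ⟨(AT k).inv_mem ht.1, by rw [inv_pow, ht.2, inv_one]⟩

variable (k) in
/-- `T5 k` as a subgroup -/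
noncomputable def TS : Subgroup ↥(chevE8.group k) where
  carrier := T5 k
  mul_mem' := T5_mul
  one_mem' := T5_one
  inv_mem' := T5_inv

theorem mem_TS {t : ↥(chevE8.group k)} : t ∈ TS k ↔ t ∈ T5 k := Iff.rfl

/-- the data attached to an element `s` of order 5 of `GT k` which normalises `T5 k` and is not in the torus -/
structure Dat (e : DU → ↥(chevE8.group k)) (s : ↥(chevE8.group k)) (u : W8) (α : DU →ₗ[ZMod 5] DU) : Prop where
  inj : Function.Injective e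
  ran : Set.range e = T5 k
  add : ∀ φ ψ, e (φ + ψ) = e φ * e ψ
  chr : ∃ ζ : k, IsPrimitiveRoot ζ 5 ∧ ∀ φ x, cX tp8 (e φ) x = ζ ^ (φ (PP x)).val
  al : ∀ φ, e (α φ) = s * e φ * s⁻¹
  five : α ^ 5 = 1
  mem : u ∈ CW
  act_al : ∀ φ x, (α φ) (PP (act u x)) = φ (PP x)
  ufive : u ^ 5 = 1
  une : u ≠ 1

theorem zinj {ζ : k} (hζ : IsPrimitiveRoot ζ 5) {a b : ZMod 5} (hab : ζ ^ a.val = ζ ^ b.val) : a = b :=
  ZMod.val_injective 5 (hζ.pow_inj (ZMod.val_lt a) (ZMod.val_lt b) hab)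

theorem exists_dat (hA : AF k hk) {s : ↥(chevE8.group k)} (hs : s ∈ GT k) (h5 : s ^ 5 = 1)
    (hn : ∀ t ∈ T5 k, s * t * s⁻¹ ∈ T5 k) (hsT : s ∉ T5 k) :
    ∃ e u α, Dat e s u α ∧ Rp cs8 (nsysL tp8 cs8 hk 3) u s := by
  obtain ⟨ζ, hζ⟩ := hA.zeta
  obtain ⟨e, he, hr, hadd, hch⟩ := hA.iso ζ hζ
  obtain ⟨u, hu, hus⟩ := hA.norm s hs hn
  have hmem : ∀ φ, e φ ∈ T5 k := fun φ => hr ▸ Set.mem_range_self φ
  have hex : ∀ φ, ∃ ψ, e ψ = s * e φ * s⁻¹ := fun φ => by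
    have h1 : s * e φ * s⁻¹ ∈ Set.range e := by
      rw [hr]
      exact hn _ (hmem φ)
    exact h1
  choose a ha using hex
  have hadd' : ∀ φ ψ, a (φ + ψ) = a φ + a ψ := fun φ ψ => by
    apply he
    rw [ha, hadd, hadd, ha, ha]
    group
  obtain ⟨α, hα⟩ : ∃ α : DU →ₗ[ZMod 5] DU, ∀ φ, α φ = a φ :=
    ⟨(AddMonoidHom.mk' a hadd').toZModLinearMap 5, fun φ => rfl⟩
  have hal : ∀ φ, e (α φ) = s * e φ * s⁻¹ := fun φ => by rw [hα, ha]
  have hpow : ∀ (n : ℕ) φ, e ((α ^ n) φ) = s ^ n * e φ * (s ^ n)⁻¹ := by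
    intro n
    induction n with
    | zero => intro φ; simp
    | succ n ih =>
      intro φ
      rw [pow_succ', Module.End.mul_apply, hal, ih]
      group
  have hfive : α ^ 5 = 1 := by
    ext1 φ
    apply he
    rw [hpow, h5, one_mul, inv_one, mul_one]
    rfl
  have hact : ∀ φ x, (α φ) (PP (act u x)) = φ (PP x) := by
    intro φ x
    apply zinj hζ
    rw [← hch, ← hch, hal]
    exact cX_rp tp8 cs8 hk 3 hus (hmem φ).1.1 x
  have hufive : u ^ 5 = 1 := by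
    have hpa : ∀ (n : ℕ) φ x, ((α ^ n) φ) (PP (act (u ^ n) x)) = φ (PP x) := by
      intro n
      induction n with
      | zero =>
        intro φ x
        rw [pow_zero, pow_zero, act_one]
        rfl
      | succ n ih =>
        intro φ x
        rw [pow_succ', pow_succ', Module.End.mul_apply, act_mul, hact, ih]
    refine eq_one_of_fix cs8 tp8.isCartan _ fun i => ?_
    have hri := isRoot_sr cs8 tp8.isCartan i
    refine PP_inj (rt_act hri (u ^ 5)) hri ?_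
    by_contra hne
    obtain ⟨j, hj⟩ := Function.ne_iff.1 hne
    have h1 := hpa 5 (LinearMap.proj j) (sr i)
    rw [hfive] at h1
    exact hj h1
  have hune : u ≠ 1 := by
    rintro rfl
    exact hsT ⟨⟨hus.mem_of_one, hs⟩, h5⟩
  exact ⟨e, u, α, ⟨he, hr, hadd, ⟨ζ, hζ, hch⟩, hal, hfive, hu, hact, hufive, hune⟩, hus⟩

variable {e : DU → ↥(chevE8.group k)} {s : ↥(chevE8.group k)} {u : W8} {α : DU →ₗ[ZMod 5] DU}

theorem Dat.mem_T5 (D : Dat e s u α) (φ : DU) : e φ ∈ T5 k := D.ran ▸ Set.mem_range_self φ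

theorem Dat.zero (D : Dat e s u α) : e 0 = 1 := by
  have h := D.add 0 0
  rw [add_zero] at h
  exact left_eq_mul.1 h

theorem Dat.neg (D : Dat e s u α) (φ : DU) : e (-φ) = (e φ)⁻¹ := by
  rw [eq_inv_iff_mul_eq_one, ← D.add, neg_add_cancel, D.zero]

theorem Dat.comm (D : Dat e s u α) (φ : DU) : e ((α - 1) φ) = s * e φ * s⁻¹ * (e φ)⁻¹ := by
  rw [← D.al, ← D.neg, ← D.add, LinearMap.sub_apply, sub_eq_add_neg]
  rfl

/-- the subspace attached to a subgroup of `T5 k` -/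
noncomputable def Dat.sub (D : Dat e s u α) (V : Subgroup ↥(chevE8.group k)) : Submodule (ZMod 5) DU :=
  AddSubgroup.toZModSubmodule 5
    { carrier := {φ | e φ ∈ V}
      zero_mem' := by
        show e 0 ∈ V
        rw [D.zero]
        exact one_mem V
      add_mem' := fun {a b} ha hb => by
        show e (a + b) ∈ V
        rw [D.add]
        exact mul_mem ha hb
      neg_mem' := fun {a} ha => by
        show e (-a) ∈ V
        rw [D.neg]
        exact inv_mem ha }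

theorem Dat.mem_sub (D : Dat e s u α) {V : Subgroup ↥(chevE8.group k)} {φ : DU} : φ ∈ D.sub V ↔ e φ ∈ V := Iff.rfl

theorem finrank_DU : Module.finrank (ZMod 5) DU = 4 := by
  rw [Subspace.dual_finrank_eq, Module.finrank_fin_fun]

theorem Dat.finrank_sub (D : Dat e s u α) {V : Subgroup ↥(chevE8.group k)} (hV : ∀ t ∈ V, t ∈ T5 k)
    (cV : Nat.card V = 25) : Module.finrank (ZMod 5) (D.sub V) = 2 := by
  have h1 : Nat.card (D.sub V) = 25 := by
    rw [← cV]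
    refine Nat.card_congr (Equiv.ofBijective (fun φ : D.sub V => (⟨e φ.1, φ.2⟩ : V)) ⟨?_, ?_⟩)
    · intro φ ψ h
      exact Subtype.ext (D.inj (congrArg Subtype.val h))
    · rintro ⟨t, ht⟩
      have h2 : t ∈ Set.range e := by
        rw [D.ran]
        exact hV t ht
      obtain ⟨φ, rfl⟩ := h2
      exact ⟨⟨φ, ht⟩, rfl⟩
  have h2 := Module.natCard_eq_pow_finrank (K := ZMod 5) (V := D.sub V)
  rw [h1, Nat.card_zmod] at h2
  exact (Nat.pow_right_injective (le_refl 5 |>.trans' (by norm_num : 2 ≤ 5)) (h2.symm.trans (by norm_num : 25 = 5 ^ 2)))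

/-- `(α - 1)²` maps everything into `V` -/
theorem Dat.sq_mem (D : Dat e s u α) {V : Subgroup ↥(chevE8.group k)} (hV : ∀ t ∈ V, t ∈ T5 k)
    (cV : Nat.card V = 25) (hs : ∀ t ∈ V, s * t * s⁻¹ ∈ V) (φ : DU) : α (α φ) - 2 • α φ + φ ∈ D.sub V := by
  refine nilp_sq D.five (D.sub V) (fun ψ hψ => ?_) ?_ φ
  · rw [D.mem_sub, D.al]
    exact hs _ hψ
  · rw [D.finrank_sub hV cV, finrank_DU]

/-- **`V` is regular** -/
theorem Dat.reg (D : Dat e s u α) (hB : BF) {V : Subgroup ↥(chevE8.group k)} (hV : ∀ t ∈ V, t ∈ T5 k)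
    (cV : Nat.card V = 25) (hs : ∀ t ∈ V, s * t * s⁻¹ ∈ V) : Reg (V : Set ↥(chevE8.group k)) := by
  intro a ha
  by_contra hcon
  push Not at hcon
  obtain ⟨ζ, hζ, hch⟩ := D.chr
  have hz : ∀ φ ∈ D.sub V, φ (PP a) = 0 := by
    intro φ hφ
    apply zinj hζ
    rw [← hch, ZMod.val_zero, pow_zero]
    exact hcon _ hφ
  have hinv : ∀ φ x, (α φ) (PP x) = φ (PP (act u⁻¹ x)) := by
    intro φ x
    rw [← D.act_al φ (act u⁻¹ x), ← act_mul, mul_inv_cancel, act_one]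
  refine hB.sq_ne u⁻¹ (inv_mem D.mem) (by rw [inv_pow, D.ufive, inv_one]) (inv_ne_one.2 D.une) a ha ?_
  funext j
  have h1 := hz _ (D.sq_mem hV cV hs (LinearMap.proj j))
  rw [LinearMap.add_apply, LinearMap.sub_apply, LinearMap.smul_apply, hinv, hinv, hinv] at h1
  exact h1

/-- **an element of `T5 k` moving `s` by an element of `V` which `s` moves** -/
theorem Dat.exists_tr (D : Dat e s u α) (hB : BF) {V : Subgroup ↥(chevE8.group k)} (hV : ∀ t ∈ V, t ∈ T5 k)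
    (cV : Nat.card V = 25) (hs : ∀ t ∈ V, s * t * s⁻¹ ∈ V) :
    ∃ t ∈ T5 k, ∃ v ∈ V, t * s * t⁻¹ = v * s ∧ s * v * s⁻¹ ≠ v := by
  have hker : Module.finrank (ZMod 5) (LinearMap.ker (α - 1)) ≤ 1 := by
    have hfx : ∀ φ ∈ LinearMap.ker (α - 1), ∀ x, φ (PP (act u x)) = φ (PP x) := by
      intro φ hφ x
      have h1 : α φ = φ := sub_eq_zero.1 (LinearMap.mem_ker.1 hφ)
      conv_lhs => rw [← h1]
      exact D.act_al φ x
    by_cases h0 : LinearMap.ker (α - 1) = ⊥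
    · rw [h0, finrank_bot]
      exact Nat.zero_le _
    · obtain ⟨φ, hφ, hne⟩ := Submodule.exists_mem_ne_zero_of_ne_bot h0
      refine finrank_le_one (⟨φ, hφ⟩ : LinearMap.ker (α - 1)) fun ψ => ?_
      obtain ⟨c, hc⟩ := hB.fix_line u D.mem D.ufive D.une φ ψ.1 (hfx φ hφ) (hfx _ ψ.2) hne
      exact ⟨c, Subtype.ext hc.symm⟩
  obtain ⟨φ, hφ⟩ := exists_cube finrank_DU hker
  have h2 : (α - 1) ((α - 1) φ) ∈ D.sub V := by
    have h3 := D.sq_mem hV cV hs φ
    have h4 : (α - 1) ((α - 1) φ) = α (α φ) - 2 • α φ + φ := by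
      simp only [LinearMap.sub_apply, Module.End.one_apply, map_sub]
      rw [two_nsmul]
      abel
    rwa [h4]
  have h5 := D.comm ((α - 1) φ)
  refine ⟨e ((α - 1) φ), D.mem_T5 _, (e ((α - 1) ((α - 1) φ)))⁻¹, inv_mem h2, ?_, ?_⟩
  · rw [h5]
    group
  · intro h6
    apply hφ
    apply D.inj
    rw [D.comm, D.zero]
    have h7 : s * e ((α - 1) ((α - 1) φ)) * s⁻¹ = e ((α - 1) ((α - 1) φ)) := by
      have h8 := congrArg (fun x => x⁻¹) h6
      simp only [mul_inv_rev, inv_inv] at h8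
      rw [← mul_assoc] at h8
      exact h8
    rw [h7, mul_inv_cancel]

end Act

/-! ### The normalised situation: `f US` normalises `T5 k` -/

section Nrm

variable {k : Type} [Field k] [CharP k 3] [IsAlgClosed k] [PerfectRing k 3] {hk : LocFin k}

/-- `f US` normalises `T5 k` and meets it in `f A`, of order 25 -/
structure Nrm (f : SL35 →* ↥(chevE8.group k)) (A : Subgroup SL35) : Prop where
  inj : Function.Injective f
  fix : ∀ x, f x ∈ GT k
  norm : ∀ x ∈ US, ∀ t ∈ T5 k, f x * t * (f x)⁻¹ ∈ T5 k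
  le : (A : Set SL35) ⊆ US
  mem : ∀ x ∈ US, f x ∈ T5 k ↔ x ∈ A
  card : Nat.card A = 25

variable {f : SL35 →* ↥(chevE8.group k)} {A : Subgroup SL35}

theorem Nrm.conj_mem (N : Nrm f A) (hS : SF) {x y : SL35} (hx : x ∈ US) (hy : y ∈ A) : x * y * x⁻¹ ∈ A := by
  obtain ⟨B, hB, -⟩ := hS.eUS
  have h1 : x * y * x⁻¹ ∈ US := by
    rw [← hB] at hx ⊢
    have h2 : y ∈ B := by
      have := N.le hy
      rwa [← hB] at this
    exact B.mul_mem (B.mul_mem hx h2) (B.inv_mem hx)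
  rw [← N.mem _ h1, map_mul, map_mul, map_inv]
  exact N.norm x hx _ ((N.mem _ (N.le hy)).2 hy)

theorem Nrm.cardV (N : Nrm f A) : Nat.card (A.map f) = 25 := by
  rw [← N.card]
  exact Nat.card_congr (A.equivMapOfInjective f N.inj).symm.toEquiv

theorem Nrm.memV (N : Nrm f A) : ∀ t ∈ A.map f, t ∈ T5 k := by
  rintro _ ⟨x, hx, rfl⟩
  exact (N.mem _ (N.le hx)).2 hx

theorem Nrm.normV (N : Nrm f A) (hS : SF) {x : SL35} (hx : x ∈ US) : ∀ t ∈ A.map f, f x * t * (f x)⁻¹ ∈ A.map f := by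
  rintro _ ⟨y, hy, rfl⟩
  refine ⟨x * y * x⁻¹, N.conj_mem hS hx hy, ?_⟩
  rw [map_mul, map_mul, map_inv]

theorem Nrm.dat (N : Nrm f A) (hA : AF k hk) {x : SL35} (hx : x ∈ US) (hxA : x ∉ A) :
    ∃ e u α, Dat e (f x) u α := by
  obtain ⟨a, b, c, rfl⟩ := hx
  obtain ⟨e, u, α, h, -⟩ := exists_dat hA (N.fix (us a b c)) (by rw [← map_pow, us_pow_five, map_one])
    (N.norm _ ⟨a, b, c, rfl⟩) (fun h => hxA ((N.mem _ ⟨a, b, c, rfl⟩).1 h))
  exact ⟨e, u, α, h⟩

/-- `f A` is regular -/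
theorem Nrm.reg (N : Nrm f A) (hS : SF) (hA : AF k hk) (hB : BF) : Reg (f '' (A : Set SL35)) := by
  obtain ⟨B, hBU, hBc⟩ := hS.eUS
  obtain ⟨x, hx, hxA⟩ : ∃ x ∈ US, x ∉ A := by
    by_contra hcon
    push Not at hcon
    have h1 : B ≤ A := fun x hx => hcon x (hBU ▸ hx)
    have hfin : Finite A := Nat.finite_of_card_ne_zero (by rw [N.card]; norm_num)
    have h2 := Nat.card_le_card_of_injective _ (Subgroup.inclusion_injective h1)
    rw [hBc, N.card] at h2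
    norm_num at h2
  obtain ⟨e, u, α, D⟩ := N.dat hA hx hxA
  have h := D.reg hB N.memV N.cardV (N.normV hS hx)
  rwa [Subgroup.coe_map] at h

/-- a subset of 25 elements of `f A` is regular -/
theorem Nrm.reg_of (N : Nrm f A) (hS : SF) (hA : AF k hk) (hB : BF) {g : ↥(chevE8.group k)} {C : Subgroup SL35}
    (hC : Nat.card C = 25) {f' : SL35 →* ↥(chevE8.group k)} (hf' : Function.Injective f')
    (h : ∀ x ∈ C, g * f' x * g⁻¹ ∈ A.map f) :
    Reg ((fun x => g * f' x * g⁻¹) '' (C : Set SL35)) := by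
  have hfin : Finite (A.map f) := Nat.finite_of_card_ne_zero (by rw [N.cardV]; norm_num)
  have hinj : Function.Injective (fun x => g * f' x * g⁻¹) := fun x y hxy => by
    have h1 : g * f' x * g⁻¹ = g * f' y * g⁻¹ := hxy
    exact hf' (mul_left_cancel (mul_right_cancel h1))
  have h1 : (fun x => g * f' x * g⁻¹) '' (C : Set SL35) = (A.map f : Set ↥(chevE8.group k)) := by
    refine Set.eq_of_subset_of_ncard_le ?_ ?_ (Set.toFinite _)
    · rintro _ ⟨x, hx, rfl⟩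
      exact h x hx
    · rw [Set.ncard_image_of_injective _ hinj, ← Nat.card_coe_set_eq, ← Nat.card_coe_set_eq]
      exact (N.cardV.trans hC.symm).le
  rw [h1, Subgroup.coe_map]
  exact N.reg hS hA hB

/-- the case where `A` is one of the four other subgroups -/
theorem Nrm.four (N : Nrm f A) (hS : SF) (hA : AF k hk) (hB : BF) {c : ZMod 5} (hc : c ≠ 0)
    (hAc : (A : Set SL35) = {g | ∃ a b, g = us a b (c * a)}) :
    ∃ g ∈ GT k, ∀ x ∈ VL, g * f x * g⁻¹ ∈ A.map f := by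
  have hsU : us 0 0 1 ∈ US := ⟨0, 0, 1, rfl⟩
  have hsA : us 0 0 1 ∉ A := by
    intro h
    have h1 : us 0 0 1 ∈ (A : Set SL35) := h
    rw [hAc] at h1
    obtain ⟨a, b, h2⟩ := h1
    obtain ⟨h3, -, h4⟩ := us_inj h2
    rw [← h3, mul_zero] at h4
    exact one_ne_zero h4
  have hmA : ∀ a b, us a b (c * a) ∈ A := by
    intro a b
    have : us a b (c * a) ∈ (A : Set SL35) := by
      rw [hAc]
      exact ⟨a, b, rfl⟩
    exact this
  obtain ⟨e, u, α, D⟩ := N.dat hA hsU hsA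
  obtain ⟨t, ht, v, hv, h1, h2⟩ := D.exists_tr hB N.memV N.cardV (N.normV hS hsU)
  obtain ⟨y, hy, rfl⟩ := hv
  have hy' : y ∈ (A : Set SL35) := hy
  rw [hAc] at hy'
  obtain ⟨a, b, rfl⟩ := hy'
  have ha : a ≠ 0 := by
    rintro rfl
    apply h2
    rw [← map_mul, ← map_inv, ← map_mul]
    congr 1
    rw [mul_inv_eq_iff_eq_mul, us_mul, us_mul]
    congr 1
    all_goals ring
  have htv : ∀ a b, t * f (us a b (c * a)) * t⁻¹ = f (us a b (c * a)) := by
    intro a b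
    rw [T5_comm ht ((N.mem _ (N.le (hmA a b))).2 (hmA a b)), mul_inv_cancel_right]
  -- an element of `T5 k` with the right transvection
  obtain ⟨t', ht', a', b', ha', hca, h3⟩ : ∃ t' ∈ T5 k, ∃ a' b', a' ≠ 0 ∧ c * a' + 1 ≠ 0 ∧
      t' * f (us 0 0 1) * t'⁻¹ = f (us a' b' (c * a' + 1)) := by
    have h4 : t * f (us 0 0 1) * t⁻¹ = f (us a (b + a) (c * a + 1)) := by
      rw [h1, ← map_mul, us_mul]
      congr 2 <;> ring
    by_cases h5 : c * a + 1 = 0
    · refine ⟨t * t, T5_mul ht ht, a + a, (b + (b + a) + a * (c * a + 1)), ?_, ?_, ?_⟩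
      · intro h6
        apply ha
        have h7 : (5 : ZMod 5) = 0 := rfl
        linear_combination 3 * h6 - a * h7
      · intro h6
        have h7 : (1 : ZMod 5) = 0 := by linear_combination 2 * h5 - h6
        exact one_ne_zero h7
      · have h6 : t * t * f (us 0 0 1) * (t * t)⁻¹ = t * (t * f (us 0 0 1) * t⁻¹) * t⁻¹ := by group
        rw [h6, h1]
        have h7 : t * (f (us a b (c * a)) * f (us 0 0 1)) * t⁻¹ =
            (t * f (us a b (c * a)) * t⁻¹) * (t * f (us 0 0 1) * t⁻¹) := by group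
        rw [h7, htv, h4, ← map_mul, us_mul]
        congr 2
        ring
    · exact ⟨t, ht, a, b + a, ha, h5, h4⟩
  -- the subgroup `A_d`
  obtain ⟨d, hd, hd'⟩ : ∃ d : ZMod 5, d ≠ 0 ∧ c * a' + 1 = d * a' := by
    refine ⟨(c * a' + 1) * a'⁻¹, mul_ne_zero hca (inv_ne_zero ha'), ?_⟩
    rw [mul_assoc, inv_mul_cancel₀ ha', mul_one]
  have hVL : ∀ x ∈ VL, ∃ a b, t' * f x * t'⁻¹ = f (us a b (d * a)) := by
    rintro _ ⟨b₀, c₀, rfl⟩
    have e1 : vl b₀ c₀ = us 0 b₀ (c * 0) * us 0 0 1 ^ c₀.val := by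
      rw [us_zz_pow, us_mul, vl_eq, ZMod.natCast_val, ZMod.cast_id]
      congr 1 <;> ring
    have e2 : t' * f (us 0 b₀ (c * 0)) * t'⁻¹ = f (us 0 b₀ (c * 0)) := by
      rw [T5_comm ht' ((N.mem _ (N.le (hmA 0 b₀))).2 (hmA 0 b₀)), mul_inv_cancel_right]
    have e3 : ∀ n : ℕ, ∃ a b, t' * f (us 0 0 1 ^ n) * t'⁻¹ = f (us a b (d * a)) := by
      intro n
      induction n with
      | zero =>
        refine ⟨0, 0, ?_⟩
        rw [pow_zero, map_one, mul_one, mul_inv_cancel, mul_zero, us_zero, map_one]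
      | succ n ih =>
        obtain ⟨a, b, h4⟩ := ih
        refine ⟨a + a', b + b' + a * (d * a'), ?_⟩
        rw [pow_succ, map_mul]
        have h5 : t' * (f (us 0 0 1 ^ n) * f (us 0 0 1)) * t'⁻¹ =
            (t' * f (us 0 0 1 ^ n) * t'⁻¹) * (t' * f (us 0 0 1) * t'⁻¹) := by group
        rw [h5, h4, h3, ← map_mul, hd', us_mul]
        congr 2
        ring
    obtain ⟨a, b, h4⟩ := e3 c₀.val
    refine ⟨a, b₀ + b, ?_⟩
    rw [e1, map_mul]
    have h5 : t' * (f (us 0 b₀ (c * 0)) * f (us 0 0 1 ^ c₀.val)) * t'⁻¹ =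
        (t' * f (us 0 b₀ (c * 0)) * t'⁻¹) * (t' * f (us 0 0 1 ^ c₀.val) * t'⁻¹) := by group
    rw [h5, e2, h4, ← map_mul, us_mul]
    congr 2 <;> ring
  obtain ⟨h, hh⟩ := hS.six_conj d c hd hc
  refine ⟨f h * t', (GT k).mul_mem (N.fix h) ht'.1.2, fun x hx => ?_⟩
  obtain ⟨a₁, b₁, h4⟩ := hVL x hx
  obtain ⟨a₂, b₂, h5⟩ := hh a₁ b₁
  refine ⟨us a₂ b₂ (c * a₂), hmA a₂ b₂, ?_⟩
  rw [← h5, map_mul, map_mul, map_inv, ← h4]
  group

/-- **Existence of the normalised situation** -/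
theorem exists_nrm (hS : SF) (hA : AF k hk) {f : SL35 →* ↥(chevE8.group k)} (hf : Function.Injective f)
    (hr : ∀ x, f x ∈ GT k) :
    ∃ g ∈ GT k, ∃ A : Subgroup SL35, Nrm ((MulAut.conj g).toMonoidHom.comp f) A := by
  obtain ⟨B, hBU, hBc⟩ := hS.eUS
  have hfin := hA.fin
  set f₀ : SL35 →* ↥(GT k) := f.codRestrict (GT k) hr with hf₀
  have hf₀i : Function.Injective f₀ := fun x y hxy => hf (congrArg Subtype.val hxy)
  have cS : Nat.card (B.map f₀) = 125 := by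
    rw [← hBc]
    exact Nat.card_congr (B.equivMapOfInjective f₀ hf₀i).symm.toEquiv
  have hTG : TS k ≤ GT k := fun t ht => ht.1.2
  have cT : Nat.card ((TS k).subgroupOf (GT k)) = 625 := by
    rw [Nat.card_congr (Subgroup.subgroupOfEquivOfLe hTG).toEquiv]
    exact hA.card
  obtain ⟨g, hg, h25⟩ := exists_conj hA.ndvd _ _ cT cS
  set f' : SL35 →* ↥(chevE8.group k) := (MulAut.conj (g : ↥(chevE8.group k))).toMonoidHom.comp f with hf'd
  have hf' : ∀ x, f' x = g * f x * (g : ↥(chevE8.group k))⁻¹ := fun x => rfl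
  have hf'i : Function.Injective f' := (MulAut.conj (g : ↥(chevE8.group k))).injective.comp hf
  set A : Subgroup SL35 := B ⊓ (TS k).comap f' with hAd
  have hnorm : ∀ x ∈ US, ∀ t ∈ T5 k, f' x * t * (f' x)⁻¹ ∈ T5 k := by
    intro x hx t ht
    rw [← hBU] at hx
    exact hg (f₀ x) ⟨x, hx, rfl⟩ ⟨t, hTG ht⟩ ht
  have hcard : 25 ≤ Nat.card A := by
    refine h25.trans ?_
    have hfA : Finite A := inferInstance
    refine Nat.card_le_card_of_injective (fun z => (⟨Classical.choose z.2.1, ?_⟩ : A)) ?_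
    · have h1 := Classical.choose_spec z.2.1
      refine ⟨h1.1, ?_⟩
      have h2 := z.2.2
      rw [← h1.2] at h2
      exact h2
    · intro z w hzw
      have h1 := Classical.choose_spec z.2.1
      have h2 := Classical.choose_spec w.2.1
      have h3 : Classical.choose z.2.1 = Classical.choose w.2.1 := congrArg Subtype.val hzw
      apply Subtype.ext
      rw [← h1.2, ← h2.2, h3]
  have hdvd : Nat.card A ∣ 125 := by
    rw [← hBc]
    exact Subgroup.card_dvd_of_le inf_le_left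
  have hne : Nat.card A ≠ 125 := by
    intro h
    have h1 : A = B := Subgroup.eq_of_le_of_card_ge inf_le_left (by rw [h, hBc])
    have h2 : ∀ x ∈ US, f' x ∈ T5 k := by
      intro x hx
      rw [← hBU] at hx
      have h3 : x ∈ A := by rw [h1]; exact hx
      exact h3.2
    have h3 := T5_comm (h2 (us 1 0 0) ⟨_, _, _, rfl⟩) (h2 (us 0 0 1) ⟨_, _, _, rfl⟩)
    rw [← map_mul, ← map_mul] at h3
    have h4 := hf'i h3
    rw [us_mul, us_mul] at h4
    have h5 := (us_inj h4).2.1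
    simp at h5
  have h25' : Nat.card A = 25 := by
    have h1 : Nat.card A ∣ 5 ^ 3 := by norm_num; exact hdvd
    obtain ⟨i, hi, h2⟩ := (Nat.dvd_prime_pow (by norm_num)).1 h1
    rw [h2] at hcard hne ⊢
    interval_cases i <;> omega
  refine ⟨g, g.2, A, ⟨hf'i, fun x => ?_, hnorm, ?_, ?_, h25'⟩⟩
  · exact (GT k).mul_mem ((GT k).mul_mem g.2 (hr x)) ((GT k).inv_mem g.2)
  · intro x hx
    rw [← hBU]
    exact hx.1
  · intro x hx
    rw [← hBU] at hx
    exact ⟨fun h => ⟨hx, h⟩, fun h => h.2⟩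

/-- **D1** (with the facts of S, A, B as hypotheses) -/
theorem exists_reg_of (hS : SF) (hA : AF k hk) (hB : BF) (f : SL35 →* ↥(chevE8.group k))
    (hf : Function.Injective f) (hr : ∀ x, f x ∈ GT k) :
    (∃ g ∈ GT k, (∀ s ∈ VP, g * f s * g⁻¹ ∈ T5 k) ∧ Reg ((fun s => g * f s * g⁻¹) '' VP)) ∨
      (∃ g ∈ GT k, (∀ s ∈ VL, g * f s * g⁻¹ ∈ T5 k) ∧ Reg ((fun s => g * f s * g⁻¹) '' VL)) := by
  obtain ⟨g, hg, A, N⟩ := exists_nrm hS hA hf hr
  have hreg := N.reg hS hA hB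
  rcases hS.six A N.le N.card with h | h | ⟨c, hc, h⟩
  · refine Or.inl ⟨g, hg, fun s hs => ?_, ?_⟩
    · rw [← h] at hs
      exact (N.mem s (N.le hs)).2 hs
    · rw [h] at hreg
      exact hreg
  · refine Or.inr ⟨g, hg, fun s hs => ?_, ?_⟩
    · rw [← h] at hs
      exact (N.mem s (N.le hs)).2 hs
    · rw [h] at hreg
      exact hreg
  · obtain ⟨y, hy, h1⟩ := N.four hS hA hB hc h
    have e : ∀ x, y * g * f x * (y * g)⁻¹ = y * ((MulAut.conj g).toMonoidHom.comp f) x * y⁻¹ := by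
      intro x
      show _ = y * (g * f x * g⁻¹) * y⁻¹
      group
    obtain ⟨C, hCV, hCc⟩ := hS.eVL
    refine Or.inr ⟨y * g, (GT k).mul_mem hy hg, fun s hs => ?_, ?_⟩
    · rw [e]
      exact N.memV _ (h1 s hs)
    · have h2 := N.reg_of hS hA hB (g := y) hCc N.inj (fun x hx => h1 x (hCV ▸ hx))
      rw [hCV] at h2
      have h3 : (fun s => y * g * f s * (y * g)⁻¹) = fun s => y * ((MulAut.conj g).toMonoidHom.comp f) s * y⁻¹ :=
        funext e
      rw [h3]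
      exact h2

end Nrm

end Cfsg.Agent.H857.L5
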