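import Cfsg.Agent.H865.L5.Base
import Cfsg.Agent.H857.L5.FLem

/-!
# S5924, U-II: step 3 of the abstract uniqueness (helper857)

`step3` : at most two extensions of `f|B` to the parabolic `P_p`.
-/

set_option autoImplicit false
set_option linter.unusedSectionVars false

namespace Cfsg.Agent.H857.L5

open Cfsg Cfsg.Agent.H865.L5

/-- upper triangular elements -/
def BB : Set SL35 := {x | x.1 1 0 = 0 ∧ x.1 2 0 = 0 ∧ x.1 2 1 = 0}

/-- the stabiliser of `p₀` -/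
def PB : Set SL35 := {x | x.1 1 0 = 0 ∧ x.1 2 0 = 0}

namespace St3

theorem ext3 {g h : SL35} (e : ∀ i j, g.1 i j = h.1 i j) : g = h := Subtype.ext (Matrix.ext e)

/-- `I + k e₂₁` -/
def lm (k : ZMod 5) : SL35 := ⟨!![1, 0, 0; 0, 1, 0; 0, k, 1], by simp [Matrix.det_fin_three]⟩

/-- the element of `L` exchanging the last two coordinates -/
def wm : SL35 := ⟨!![-1, 0, 0; 0, 0, 1; 0, 1, 0], by rw [Matrix.det_fin_three]; decide⟩

/-- `diag(3,1,2)` -/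
def hm : SL35 := ⟨!![3, 0, 0; 0, 1, 0; 0, 0, 2], by rw [Matrix.det_fin_three]; decide⟩

theorem lm_mul (k l : ZMod 5) : lm k * lm l = lm (k + l) := by
  apply Subtype.ext
  show (!![1, 0, 0; 0, 1, 0; 0, k, 1] * !![1, 0, 0; 0, 1, 0; 0, l, 1] : Matrix (Fin 3) (Fin 3) (ZMod 5)) =
    !![1, 0, 0; 0, 1, 0; 0, k + l, 1]
  ext i j
  fin_cases i <;> fin_cases j <;> simp [Matrix.mul_apply, Fin.sum_univ_three]

theorem lm_zero : lm 0 = 1 := by
  apply Subtype.ext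
  show !![1, 0, 0; 0, 1, 0; 0, 0, 1] = (1 : Matrix (Fin 3) (Fin 3) (ZMod 5))
  ext i j
  fin_cases i <;> fin_cases j <;> rfl

theorem wm_us : wm * us 0 0 1 = lm 1 * wm := by
  apply ext3
  decide

theorem wm_wm : wm * wm = 1 := by
  apply Subtype.ext
  show (!![-1, 0, 0; 0, 0, 1; 0, 1, 0] * !![-1, 0, 0; 0, 0, 1; 0, 1, 0] : Matrix (Fin 3) (Fin 3) (ZMod 5)) = 1
  decide

theorem hm_lm : hm * lm 1 = lm 1 * lm 1 * hm := by
  apply ext3
  decide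

theorem z0_lm : z0 * lm 1 = lm 1 * z0 := by
  apply ext3
  decide

theorem lm_five : lm 1 * lm 1 * lm 1 * lm 1 * lm 1 = 1 := by
  rw [lm_mul, lm_mul, lm_mul, lm_mul, ← lm_zero]
  rfl

/-- `PB` normalises `VP` -/
theorem vp_conj {x : SL35} (hx : x ∈ PB) {s : SL35} (hs : s ∈ VP) : ∃ s' ∈ VP, s * x = x * s' := by
  obtain ⟨a, b, rfl⟩ := hs
  obtain ⟨h1, h2⟩ := hx
  have hd := x.2
  rw [Matrix.det_fin_three, h1, h2] at hd
  have hd' : x.1 0 0 * (x.1 1 1 * x.1 2 2 - x.1 1 2 * x.1 2 1) = 1 := by linear_combination hd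
  refine ⟨vp ((x.1 1 1 * x.1 2 2 - x.1 1 2 * x.1 2 1) * (a * x.1 1 1 + b * x.1 2 1))
    ((x.1 1 1 * x.1 2 2 - x.1 1 2 * x.1 2 1) * (a * x.1 1 2 + b * x.1 2 2)), ⟨_, _, rfl⟩, ?_⟩
  apply ext3
  intro i j
  show (!![1, a, b; 0, 1, 0; 0, 0, 1] * x.1 : Matrix (Fin 3) (Fin 3) (ZMod 5)) i j =
    (x.1 * !![1, (x.1 1 1 * x.1 2 2 - x.1 1 2 * x.1 2 1) * (a * x.1 1 1 + b * x.1 2 1),
      (x.1 1 1 * x.1 2 2 - x.1 1 2 * x.1 2 1) * (a * x.1 1 2 + b * x.1 2 2); 0, 1, 0; 0, 0, 1]) i j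
  fin_cases i <;> fin_cases j <;> simp [Matrix.mul_apply, Fin.sum_univ_three, h1, h2]
  · linear_combination (-(a * x.1 1 1 + b * x.1 2 1)) * hd'
  · linear_combination (-(a * x.1 1 2 + b * x.1 2 2)) * hd'

/-- generation of `PB` -/
theorem PB_le {E : Subgroup SL35} (hB : ∀ x ∈ BB, x ∈ E) (hm : lm 1 ∈ E) {x : SL35} (hx : x ∈ PB) : x ∈ E := by
  have hlm : ∀ k : ZMod 5, lm k ∈ E := by
    intro k
    have h1 : ∀ n : ℕ, lm (n : ZMod 5) ∈ E := by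
      intro n
      induction n with
      | zero =>
        rw [Nat.cast_zero, lm_zero]
        exact one_mem _
      | succ n ih =>
        rw [Nat.cast_succ, ← lm_mul]
        exact mul_mem ih hm
    have h2 := h1 k.val
    rwa [ZMod.natCast_val, ZMod.cast_id] at h2
  obtain ⟨h1, h2⟩ := hx
  have hd := x.2
  rw [Matrix.det_fin_three, h1, h2] at hd
  -- the case `x₁₁ ≠ 0`
  have key : ∀ y : SL35, y.1 1 0 = 0 → y.1 2 0 = 0 → y.1 1 1 ≠ 0 → y ∈ E := by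
    intro y k1 k2 k3
    have h3 : lm (-(y.1 2 1 * (y.1 1 1)⁻¹)) * y ∈ E := by
      apply hB
      refine ⟨?_, ?_, ?_⟩
      · show (!![1, 0, 0; 0, 1, 0; 0, -(y.1 2 1 * (y.1 1 1)⁻¹), 1] * y.1 : Matrix (Fin 3) (Fin 3) (ZMod 5)) 1 0 = 0
        simp [Matrix.mul_apply, Fin.sum_univ_three, k1]
      · show (!![1, 0, 0; 0, 1, 0; 0, -(y.1 2 1 * (y.1 1 1)⁻¹), 1] * y.1 : Matrix (Fin 3) (Fin 3) (ZMod 5)) 2 0 = 0
        simp [Matrix.mul_apply, Fin.sum_univ_three, k1, k2]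
      · show (!![1, 0, 0; 0, 1, 0; 0, -(y.1 2 1 * (y.1 1 1)⁻¹), 1] * y.1 : Matrix (Fin 3) (Fin 3) (ZMod 5)) 2 1 = 0
        simp [Matrix.mul_apply, Fin.sum_univ_three]
        rw [mul_assoc, inv_mul_cancel₀ k3]
        ring
    exact (E.mul_mem_cancel_left (hlm _)).1 h3
  by_cases h3 : x.1 1 1 = 0
  · have h4 : x.1 2 1 ≠ 0 := by
      intro h
      rw [h3, h] at hd
      simp at hd
    have h5 : us 0 0 1 * x ∈ E := by
      apply key
      · show (!![1, 0, 0; 0, 1, 1; 0, 0, 1] * x.1 : Matrix (Fin 3) (Fin 3) (ZMod 5)) 1 0 = 0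
        simp [Matrix.mul_apply, Fin.sum_univ_three, h1, h2]
      · show (!![1, 0, 0; 0, 1, 1; 0, 0, 1] * x.1 : Matrix (Fin 3) (Fin 3) (ZMod 5)) 2 0 = 0
        simp [Matrix.mul_apply, Fin.sum_univ_three, h2]
      · show (!![1, 0, 0; 0, 1, 1; 0, 0, 1] * x.1 : Matrix (Fin 3) (Fin 3) (ZMod 5)) 1 1 ≠ 0
        simp [Matrix.mul_apply, Fin.sum_univ_three, h3, h4]
    exact (E.mul_mem_cancel_left (hB _ ⟨rfl, rfl, rfl⟩)).1 h5
  · exact key x h1 h2 h3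

section Cent

variable {Γ : Type*} [Group Γ]

/-- the elements commuting with `f VP` -/
def Cm (f : SL35 →* Γ) (a : Γ) : Prop := ∀ s ∈ VP, a * f s = f s * a

variable {f : SL35 →* Γ}

theorem Cm.mul {a b : Γ} (ha : Cm f a) (hb : Cm f b) : Cm f (a * b) := fun s hs => by
  rw [mul_assoc, hb s hs, ← mul_assoc, ha s hs, mul_assoc]

theorem Cm.one : Cm f 1 := fun s _ => by rw [one_mul, mul_one]

theorem Cm.inv {a : Γ} (ha : Cm f a) : Cm f a⁻¹ := fun s hs => by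
  rw [inv_mul_eq_iff_eq_mul, ← mul_assoc, ha s hs, mul_inv_cancel_right]

theorem Cm.conj {a : Γ} (ha : Cm f a) {x : SL35} (hx : x ∈ PB) : Cm f (f x * a * (f x)⁻¹) := fun s hs => by
  obtain ⟨s', hs', h⟩ := vp_conj hx hs
  have h1 : f s * f x = f x * f s' := by rw [← map_mul, h, map_mul]
  have h2 : (f x)⁻¹ * f s = f s' * (f x)⁻¹ := by
    rw [inv_mul_eq_iff_eq_mul, ← mul_assoc, ← h1, mul_inv_cancel_right]
  calc f x * a * (f x)⁻¹ * f s = f x * a * ((f x)⁻¹ * f s) := by group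
    _ = f x * (a * f s') * (f x)⁻¹ := by rw [h2]; group
    _ = (f x * f s') * a * (f x)⁻¹ := by rw [ha s' hs']; group
    _ = f s * (f x * a * (f x)⁻¹) := by rw [← h1]; group

/-- the hypotheses on `f` -/
structure Hy (f : SL35 →* Γ) : Prop where
  hc : ∀ a, Cm f a → a ^ 10 = 1 ∧ f z0 * a * (f z0)⁻¹ = a ^ 7
  hab : ∀ a b, Cm f a → Cm f b → a * b = b * a
  h16 : Nat.card {a : Γ // Cm f a ∧ a ^ 2 = 1} = 16
  hu : ∀ a, Cm f a → a * f (us 0 0 1) = f (us 0 0 1) * a → a ^ 2 = 1 → a = 1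

/-- the elements of order 2 of the centraliser -/
def A2 (H : Hy f) : Subgroup Γ where
  carrier := {a | Cm f a ∧ a ^ 2 = 1}
  mul_mem' := fun {a b} ha hb => ⟨ha.1.mul hb.1, by
    have h : Commute a b := H.hab a b ha.1 hb.1
    rw [h.mul_pow, ha.2, hb.2, one_mul]⟩
  one_mem' := ⟨Cm.one, one_pow _⟩
  inv_mem' := fun {a} ha => ⟨ha.1.inv, by rw [inv_pow, ha.2, inv_one]⟩

/-- the conjugation by `f x` -/
def cj (H : Hy f) {x : SL35} (hx : x ∈ PB) : ↥(A2 H) →* ↥(A2 H) where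
  toFun a := ⟨f x * a.1 * (f x)⁻¹, a.2.1.conj hx, by
    have h : (f x * a.1 * (f x)⁻¹) ^ 2 = f x * a.1 ^ 2 * (f x)⁻¹ := by rw [pow_two, pow_two]; group
    rw [h, a.2.2, mul_one, mul_inv_cancel]⟩
  map_one' := Subtype.ext (by
    show f x * 1 * (f x)⁻¹ = 1
    group)
  map_mul' a b := Subtype.ext (by
    show f x * (a.1 * b.1) * (f x)⁻¹ = f x * a.1 * (f x)⁻¹ * (f x * b.1 * (f x)⁻¹)
    group)

theorem cj_val (H : Hy f) {x : SL35} (hx : x ∈ PB) (a : ↥(A2 H)) : (cj H hx a).1 = f x * a.1 * (f x)⁻¹ := rfl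

theorem lm_PB : lm 1 ∈ PB := ⟨rfl, rfl⟩

theorem hm_PB : hm ∈ PB := ⟨rfl, rfl⟩

/-- `lm 1` acts without fixed points -/
theorem eq_one_of_lm (H : Hy f) {a : Γ} (ha : Cm f a) (h2 : a ^ 2 = 1) (h : a * f (lm 1) = f (lm 1) * a) : a = 1 := by
  have hw : wm⁻¹ ∈ PB := by
    have e : wm⁻¹ = wm := by
      rw [inv_eq_iff_mul_eq_one, wm_wm]
    rw [e]
    exact ⟨rfl, rfl⟩
  have h3 := ha.conj hw
  rw [map_inv, inv_inv] at h3
  have h4 : (f wm)⁻¹ * a * f wm = 1 := by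
    refine H.hu _ h3 ?_ ?_
    · have e : f (us 0 0 1) = (f wm)⁻¹ * f (lm 1) * f wm := by
        rw [mul_assoc, ← map_mul, ← wm_us, map_mul, inv_mul_cancel_left]
      rw [e]
      calc (f wm)⁻¹ * a * f wm * ((f wm)⁻¹ * f (lm 1) * f wm) = (f wm)⁻¹ * (a * f (lm 1)) * f wm := by group
        _ = (f wm)⁻¹ * f (lm 1) * f wm * ((f wm)⁻¹ * a * f wm) := by rw [h]; group
    · have h : ((f wm)⁻¹ * a * f wm) ^ 2 = (f wm)⁻¹ * a ^ 2 * f wm := by rw [pow_two, pow_two]; group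
      rw [h, h2, mul_one, inv_mul_cancel]
  have h5 : a = f wm * ((f wm)⁻¹ * a * f wm) * (f wm)⁻¹ := by group
  rw [h5, h4, mul_one, mul_inv_cancel]

/-- **the fixed elements of `hm`** -/
theorem F_unique (H : Hy f) {a b : Γ} (ha : Cm f a) (ha2 : a ^ 2 = 1) (hb : Cm f b) (hb2 : b ^ 2 = 1)
    (hah : f hm * a * (f hm)⁻¹ = a) (hbh : f hm * b * (f hm)⁻¹ = b) (ha0 : a ≠ 1) (hb0 : b ≠ 1) : a = b := by
  let _ : CommGroup ↥(A2 H) :=
    { (inferInstance : Group ↥(A2 H)) with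
      mul_comm := fun a b => Subtype.ext (H.hab a.1 b.1 a.2.1 b.2.1) }
  have h := fix_unique (M := ↥(A2 H)) H.h16 (fun v => Subtype.ext v.2.2) (cj H lm_PB) (cj H hm_PB)
    (fun v => by
      apply Subtype.ext
      simp only [cj_val]
      have h5 : f (lm 1) * f (lm 1) * f (lm 1) * f (lm 1) * f (lm 1) = 1 := by
        rw [← map_mul, ← map_mul, ← map_mul, ← map_mul, lm_five, map_one]
      calc f (lm 1) * (f (lm 1) * (f (lm 1) * (f (lm 1) * (f (lm 1) * v.1 * (f (lm 1))⁻¹) * (f (lm 1))⁻¹) *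
            (f (lm 1))⁻¹) * (f (lm 1))⁻¹) * (f (lm 1))⁻¹ =
            (f (lm 1) * f (lm 1) * f (lm 1) * f (lm 1) * f (lm 1)) * v.1 *
              (f (lm 1) * f (lm 1) * f (lm 1) * f (lm 1) * f (lm 1))⁻¹ := by group
        _ = v.1 := by rw [h5, one_mul, inv_one, mul_one])
    (fun v hv => by
      apply Subtype.ext
      refine eq_one_of_lm H v.2.1 v.2.2 ?_
      have h1 : f (lm 1) * v.1 * (f (lm 1))⁻¹ = v.1 := congrArg Subtype.val hv
      rw [mul_inv_eq_iff_eq_mul] at h1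
      exact h1.symm)
    (fun v => by
      apply Subtype.ext
      simp only [cj_val]
      have h1 : f hm * f (lm 1) = f (lm 1) * f (lm 1) * f hm := by rw [← map_mul, hm_lm, map_mul, map_mul]
      calc f hm * (f (lm 1) * v.1 * (f (lm 1))⁻¹) * (f hm)⁻¹ = (f hm * f (lm 1)) * v.1 * (f hm * f (lm 1))⁻¹ := by group
        _ = f (lm 1) * (f (lm 1) * (f hm * v.1 * (f hm)⁻¹) * (f (lm 1))⁻¹) * (f (lm 1))⁻¹ := by rw [h1]; group)
    (a := ⟨a, ha, ha2⟩) (b := ⟨b, hb, hb2⟩) (Subtype.ext hah) (Subtype.ext hbh)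
    (fun e => ha0 (congrArg Subtype.val e)) (fun e => hb0 (congrArg Subtype.val e))
  exact congrArg Subtype.val h

/-- **the form of `f' (lm 1)`** -/
theorem exists_c (H : Hy f) {f' : SL35 →* Γ} (h : ∀ x ∈ BB, f' x = f x) :
    ∃ c, Cm f c ∧ c ^ 2 = 1 ∧ f hm * c * (f hm)⁻¹ = c ∧ f' (lm 1) = c * f (lm 1) * c⁻¹ := by
  have hVB : ∀ s ∈ VP, f' s = f s := by
    rintro _ ⟨a, b, rfl⟩
    exact h _ ⟨rfl, rfl, rfl⟩
  have hz : f' z0 = f z0 := h _ ⟨rfl, rfl, rfl⟩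
  have hh : f' hm = f hm := h _ ⟨rfl, rfl, rfl⟩
  obtain ⟨a, ha⟩ : ∃ a, a = f' (lm 1) * (f (lm 1))⁻¹ := ⟨_, rfl⟩
  have ha' : f' (lm 1) = a * f (lm 1) := by rw [ha, inv_mul_cancel_right]
  have haC : Cm f a := by
    intro s hs
    obtain ⟨s', hs', h1⟩ := vp_conj lm_PB hs
    have h2 : f s * f (lm 1) = f (lm 1) * f s' := by rw [← map_mul, h1, map_mul]
    have h3 : f s * f' (lm 1) = f' (lm 1) * f s' := by rw [← hVB s hs, ← hVB s' hs', ← map_mul, h1, map_mul]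
    have h4 : (f (lm 1))⁻¹ * f s = f s' * (f (lm 1))⁻¹ := by
      rw [inv_mul_eq_iff_eq_mul, ← mul_assoc, ← h2, mul_inv_cancel_right]
    rw [ha, mul_assoc, h4, ← mul_assoc, ← h3, mul_assoc]
  have haz : f z0 * a * (f z0)⁻¹ = a := by
    have h1 : f z0 * f (lm 1) = f (lm 1) * f z0 := by rw [← map_mul, z0_lm, map_mul]
    have h2 : f z0 * f' (lm 1) = f' (lm 1) * f z0 := by rw [← hz, ← map_mul, z0_lm, map_mul]
    rw [mul_inv_eq_iff_eq_mul, ha, ← mul_assoc, h2, mul_assoc, mul_assoc]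
    congr 1
    rw [eq_inv_mul_iff_mul_eq, ← mul_assoc, ← h1, mul_inv_cancel_right]
  obtain ⟨h10, h7⟩ := H.hc a haC
  have h6 : a ^ 6 = 1 := by
    rw [haz] at h7
    have h1 : a * a ^ 6 = a * 1 := by rw [mul_one, ← pow_succ', ← h7]
    exact mul_left_cancel h1
  have h2 : a ^ 2 = 1 := by
    have h4 : a ^ 4 = 1 := by
      have : a ^ 10 = a ^ 6 * a ^ 4 := by rw [← pow_add]
      rw [h10, h6, one_mul] at this
      exact this.symm
    have : a ^ 6 = a ^ 4 * a ^ 2 := by rw [← pow_add]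
    rw [h6, h4, one_mul] at this
    exact this.symm
  -- surjectivity
  have hfin : Finite ↥(A2 H) := by
    refine Nat.finite_of_card_ne_zero ?_
    have h1 : Nat.card ↥(A2 H) = 16 := H.h16
    rw [h1]
    norm_num
  have hsurj : Function.Surjective (fun c : ↥(A2 H) => c * (cj H lm_PB c)⁻¹) := by
    refine Finite.surjective_of_injective fun c d hcd => ?_
    have h1 : c * (cj H lm_PB c)⁻¹ = d * (cj H lm_PB d)⁻¹ := hcd
    have h2 : cj H lm_PB (d⁻¹ * c) = d⁻¹ * c := by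
      rw [map_mul, map_inv]
      have h3 : d⁻¹ * c = (cj H lm_PB d)⁻¹ * cj H lm_PB c := by
        calc d⁻¹ * c = d⁻¹ * (c * (cj H lm_PB c)⁻¹) * cj H lm_PB c := by group
          _ = d⁻¹ * (d * (cj H lm_PB d)⁻¹) * cj H lm_PB c := by rw [h1]
          _ = (cj H lm_PB d)⁻¹ * cj H lm_PB c := by group
      exact h3.symm
    have h3 : (d⁻¹ * c).1 = 1 := by
      refine eq_one_of_lm H (d⁻¹ * c).2.1 (d⁻¹ * c).2.2 ?_
      have h4 : f (lm 1) * (d⁻¹ * c).1 * (f (lm 1))⁻¹ = (d⁻¹ * c).1 := congrArg Subtype.val h2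
      rw [mul_inv_eq_iff_eq_mul] at h4
      exact h4.symm
    have h4 : d⁻¹ * c = 1 := Subtype.ext h3
    exact (inv_mul_eq_one.1 h4).symm
  obtain ⟨c, hc⟩ := hsurj ⟨a, haC, h2⟩
  have hc' : c.1 * (f (lm 1) * c.1 * (f (lm 1))⁻¹)⁻¹ = a := congrArg Subtype.val hc
  have hfl : f' (lm 1) = c.1 * f (lm 1) * c.1⁻¹ := by
    rw [ha', ← hc']
    group
  refine ⟨c.1, c.2.1, c.2.2, ?_, hfl⟩
  -- `c` commutes with `f hm`
  obtain ⟨x, hx⟩ : ∃ x, x = f (lm 1) := ⟨_, rfl⟩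
  obtain ⟨y, hy⟩ : ∃ y, y = f hm := ⟨_, rfl⟩
  have hyx : y * x = x * x * y := by rw [hx, hy, ← map_mul, hm_lm, map_mul, map_mul]
  have hx5 : x * x * x * x * x = 1 := by
    rw [hx, ← map_mul, ← map_mul, ← map_mul, ← map_mul, lm_five, map_one]
  have h8 : y * (c.1 * x * c.1⁻¹) = (c.1 * x * c.1⁻¹) * (c.1 * x * c.1⁻¹) * y := by
    have h9 : f' hm * f' (lm 1) = f' (lm 1) * f' (lm 1) * f' hm := by rw [← map_mul, hm_lm, map_mul, map_mul]
    rw [hh, hfl, ← hx, ← hy] at h9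
    exact h9
  have h9 : (y * c.1 * y⁻¹)⁻¹ * c.1 * (x * x) = x * x * ((y * c.1 * y⁻¹)⁻¹ * c.1) := by
    have h10 : y * c.1 * y⁻¹ * (x * x) * (y * c.1 * y⁻¹)⁻¹ = c.1 * (x * x) * c.1⁻¹ := by
      have h11 : x * x = y * x * y⁻¹ := by rw [hyx, mul_inv_cancel_right]
      calc y * c.1 * y⁻¹ * (x * x) * (y * c.1 * y⁻¹)⁻¹ = y * c.1 * y⁻¹ * (y * x * y⁻¹) * (y * c.1 * y⁻¹)⁻¹ := by
            rw [← h11]
        _ = y * (c.1 * x * c.1⁻¹) * y⁻¹ := by group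
        _ = (c.1 * x * c.1⁻¹) * (c.1 * x * c.1⁻¹) * y * y⁻¹ := by rw [h8]
        _ = c.1 * (x * x) * c.1⁻¹ := by group
    calc (y * c.1 * y⁻¹)⁻¹ * c.1 * (x * x) = (y * c.1 * y⁻¹)⁻¹ * (c.1 * (x * x) * c.1⁻¹) * c.1 := by group
      _ = (y * c.1 * y⁻¹)⁻¹ * (y * c.1 * y⁻¹ * (x * x) * (y * c.1 * y⁻¹)⁻¹) * c.1 := by rw [h10]
      _ = x * x * ((y * c.1 * y⁻¹)⁻¹ * c.1) := by group
  have h10 : Commute ((y * c.1 * y⁻¹)⁻¹ * c.1) x := by
    have h11 : Commute ((y * c.1 * y⁻¹)⁻¹ * c.1) (x * x) := h9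
    have h12 : x = (x * x) ^ 3 := by
      have : (x * x) ^ 3 = (x * x * x * x * x) * x := by
        rw [pow_succ, pow_succ, pow_one]
        group
      rw [this, hx5, one_mul]
    rw [h12]
    exact h11.pow_right 3
  have h13 : (y * c.1 * y⁻¹)⁻¹ * c.1 = 1 := by
    have hm2 := (((cj H hm_PB c)⁻¹ * c : ↥(A2 H))).2
    have hv : (((cj H hm_PB c)⁻¹ * c : ↥(A2 H))).1 = (y * c.1 * y⁻¹)⁻¹ * c.1 := by rw [hy]; rfl
    rw [hv] at hm2
    refine eq_one_of_lm H hm2.1 hm2.2 ?_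
    rw [← hx]
    exact h10
  rw [← hy]
  exact inv_mul_eq_one.1 h13

end Cent

end St3

open St3

/-- **Step 3 of the abstract uniqueness**: at most two extensions to `P_p` -/
theorem step3 {Γ : Type*} [Group Γ]
    (hc : ∀ f : SL35 →* Γ, Function.Injective f → ∀ a, (∀ s ∈ VP, a * f s = f s * a) →
      a ^ 10 = 1 ∧ f z0 * a * (f z0)⁻¹ = a ^ 7)
    (hab : ∀ f : SL35 →* Γ, Function.Injective f → ∀ a b, (∀ s ∈ VP, a * f s = f s * a) →
      (∀ s ∈ VP, b * f s = f s * b) → a * b = b * a)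
    (h16 : ∀ f : SL35 →* Γ, Function.Injective f →
      Nat.card {a : Γ // (∀ s ∈ VP, a * f s = f s * a) ∧ a ^ 2 = 1} = 16)
    (hu : ∀ f : SL35 →* Γ, Function.Injective f → ∀ a, (∀ s ∈ VP, a * f s = f s * a) →
      a * f (us 0 0 1) = f (us 0 0 1) * a → a ^ 2 = 1 → a = 1)
    (f f' f'' : SL35 →* Γ) (hf : Function.Injective f) (hf' : Function.Injective f') (hf'' : Function.Injective f'')
    (h : ∀ x ∈ BB, f' x = f x) (h' : ∀ x ∈ BB, f'' x = f x) :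
    (∀ x ∈ PB, f' x = f x) ∨ (∀ x ∈ PB, f'' x = f x) ∨ (∀ x ∈ PB, f' x = f'' x) := by
  have H : Hy f := ⟨hc f hf, hab f hf, h16 f hf, hu f hf⟩
  have ext : ∀ g g' : SL35 →* Γ, (∀ x ∈ BB, g x = g' x) → g (lm 1) = g' (lm 1) → ∀ x ∈ PB, g x = g' x :=
    fun g g' h1 h2 x hx => PB_le (E := g.eqLocus g') h1 h2 hx
  obtain ⟨c, hcC, hc2, hch, hcl⟩ := exists_c H h
  obtain ⟨d, hdC, hd2, hdh, hdl⟩ := exists_c H h'
  by_cases c1 : c = 1
  · left
    refine ext f' f h ?_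
    rw [hcl, c1, one_mul, inv_one, mul_one]
  by_cases d1 : d = 1
  · right; left
    refine ext f'' f h' ?_
    rw [hdl, d1, one_mul, inv_one, mul_one]
  right; right
  refine ext f' f'' (fun x hx => (h x hx).trans (h' x hx).symm) ?_
  rw [hcl, hdl, F_unique H hcC hc2 hdC hd2 hch hdh c1 d1]

end Cfsg.Agent.H857.L5
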