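import Cfsg.Agent.OddOrderCharacters.Wielandt

/-!
# Coprime action of 5-groups (helper857, for S5923, M4)
-/

set_option autoImplicit false
set_option linter.unusedSectionVars false

namespace Cfsg.Agent.H857.L5

open Subgroup

section W

variable {G : Type*} [Group G] [Finite G]

/-- Wielandt's formula for a partition of `F` modulo `Z` into six subgroups -/
theorem wiel {R F Z : Subgroup G} (X : Option (ZMod 5) → Subgroup G) (hFR : F ≤ normalizer (R : Set G))
    (hcop : (Nat.card F).Coprime (Nat.card R)) (hsolv : Group.IsSolvable R) (hZ : ∀ i, Z ≤ X i) (hX : ∀ i, X i ≤ F)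
    (hu : ∀ g ∈ F, g ∉ Z → ∃ i, g ∈ X i ∧ ∀ j, g ∈ X j → j = i) :
    ∏ i, Nat.card ↥(R ⊓ centralizer (X i : Set G)) ^ Nat.card (X i) =
      Nat.card ↥(R ⊓ centralizer (F : Set G)) ^ Nat.card F *
        (Nat.card ↥(R ⊓ centralizer (Z : Set G)) ^ Nat.card Z) ^ 5 := by
  have hZF : Z ≤ F := (hZ none).trans (hX none)
  have h := Cfsg.Agent.OddOrderCharacters.Wielandt.wielandt F R hFR hcop hsolv X
    (fun j : Option (Fin 5) => j.elim F fun _ => Z) hX (fun j => by
      cases j with
      | none => exact le_refl F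
      | some _ => exact hZF) (fun g => ?_)
  · rw [h, Fintype.prod_option]
    congr 1
    exact (Finset.prod_const (s := (Finset.univ : Finset (Fin 5)))
      (Nat.card ↥(R ⊓ centralizer (Z : Set G)) ^ Nat.card Z)).trans (by rw [Finset.card_univ, Fintype.card_fin])
  · by_cases hgF : g ∈ F
    · by_cases hgZ : g ∈ Z
      · have e1 : Nat.card {i // g ∈ X i} = Nat.card (Option (ZMod 5)) :=
          Nat.card_congr (Equiv.subtypeUnivEquiv fun i => hZ i hgZ)
        have e2 : Nat.card {j : Option (Fin 5) // g ∈ (j.elim F fun _ => Z : Subgroup G)} = Nat.card (Option (Fin 5)) :=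
          Nat.card_congr (Equiv.subtypeUnivEquiv fun j => by
            cases j with
            | none => exact hgF
            | some _ => exact hgZ)
        rw [e1, e2]
        rfl
      · obtain ⟨i, hi, hi2⟩ := hu g hgF hgZ
        have e1 : Nat.card {i // g ∈ X i} = 1 :=
          Nat.card_eq_one_iff_unique.2 ⟨⟨fun a b => Subtype.ext ((hi2 a a.2).trans (hi2 b b.2).symm)⟩, ⟨⟨i, hi⟩⟩⟩
        have e2 : Nat.card {j : Option (Fin 5) // g ∈ (j.elim F fun _ => Z : Subgroup G)} = 1 := by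
          refine Nat.card_eq_one_iff_unique.2 ⟨⟨fun a b => Subtype.ext ?_⟩, ⟨⟨none, hgF⟩⟩⟩
          have key : ∀ a : {j : Option (Fin 5) // g ∈ (j.elim F fun _ => Z : Subgroup G)}, a.1 = none := by
            rintro ⟨j, hj⟩
            cases j with
            | none => rfl
            | some _ => exact absurd hj hgZ
          rw [key a, key b]
        rw [e1, e2]
    · have e1 : Nat.card {i // g ∈ X i} = 0 :=
        Nat.card_eq_zero.2 (Or.inl ⟨fun a => hgF (hX _ a.2)⟩)
      have e2 : Nat.card {j : Option (Fin 5) // g ∈ (j.elim F fun _ => Z : Subgroup G)} = 0 := by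
        refine Nat.card_eq_zero.2 (Or.inl ⟨?_⟩)
        rintro ⟨j, hj⟩
        cases j with
        | none => exact hgF hj
        | some _ => exact hgF (hZF hj)
      rw [e1, e2]

theorem exists_lg {R : Subgroup G} (hR : IsPGroup 2 R) : ∃ d : Subgroup G → ℕ, ∀ A : Subgroup G,
    Nat.card ↥(R ⊓ centralizer (A : Set G)) = 2 ^ d A := by
  have : Fact (Nat.Prime 2) := ⟨Nat.prime_two⟩
  have h : ∀ A : Subgroup G, ∃ n, Nat.card ↥(R ⊓ centralizer (A : Set G)) = 2 ^ n := fun A =>
    (IsPGroup.iff_card).1 (hR.to_le inf_le_left)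
  choose d hd using h
  exact ⟨d, hd⟩

/-- fixed points of a 5-group -/
theorem cong_five {F Z R : Subgroup G} (hF : IsPGroup 5 F) (hZF : Z ≤ F) (hFZ : F ≤ normalizer (Z : Set G))
    (hFR : F ≤ normalizer (R : Set G)) :
    Nat.card ↥(R ⊓ centralizer (Z : Set G)) ≡ Nat.card ↥(R ⊓ centralizer (F : Set G)) [MOD 5] := by
  have : Fact (Nat.Prime 5) := ⟨by norm_num⟩
  have hmem : ∀ g ∈ F, ∀ c ∈ R ⊓ centralizer (Z : Set G), g * c * g⁻¹ ∈ R ⊓ centralizer (Z : Set G) := by
    rintro g hg c ⟨hc1, hc2'⟩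
    have hc2 : c ∈ centralizer (Z : Set G) := hc2'
    refine ⟨(mem_normalizer_iff.1 (hFR hg) c).1 hc1, ?_⟩
    show _ ∈ centralizer (Z : Set G)
    rw [mem_centralizer_iff] at hc2 ⊢
    intro z hz
    have h1 : g⁻¹ * z * g ∈ Z := (mem_normalizer_iff''.1 (hFZ hg) z).1 hz
    have h2 := hc2 _ h1
    calc z * (g * c * g⁻¹) = g * (g⁻¹ * z * g * c) * g⁻¹ := by group
      _ = g * c * g⁻¹ * z := by rw [h2]; group
  let _ : MulAction F ↥(R ⊓ centralizer (Z : Set G)) :=
    { smul := fun g c => ⟨g.1 * c.1 * g.1⁻¹, hmem g.1 g.2 c.1 c.2⟩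
      one_smul := fun c => Subtype.ext (by
        show (1 : G) * c.1 * (1 : G)⁻¹ = c.1
        group)
      mul_smul := fun g h c => Subtype.ext (by
        show (g.1 * h.1) * c.1 * (g.1 * h.1)⁻¹ = g.1 * (h.1 * c.1 * h.1⁻¹) * g.1⁻¹
        group) }
  have h1 := hF.card_modEq_card_fixedPoints ↥(R ⊓ centralizer (Z : Set G))
  have h2 : Nat.card (MulAction.fixedPoints F ↥(R ⊓ centralizer (Z : Set G))) = Nat.card ↥(R ⊓ centralizer (F : Set G)) := by
    refine Nat.card_congr ⟨fun c => ⟨c.1.1, c.1.2.1, ?_⟩, fun c => ⟨⟨c.1, c.2.1, ?_⟩, ?_⟩, fun c => rfl, fun c => rfl⟩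
    · show c.1.1 ∈ centralizer (F : Set G)
      rw [mem_centralizer_iff]
      intro g hg
      have h3 : g * c.1.1 * g⁻¹ = c.1.1 := congrArg Subtype.val (c.2 ⟨g, hg⟩)
      rw [mul_inv_eq_iff_eq_mul] at h3
      exact h3
    · exact centralizer_le hZF c.2.2
    · intro g
      apply Subtype.ext
      show g.1 * c.1 * g.1⁻¹ = c.1
      rw [mem_centralizer_iff.1 c.2.2 g.1 g.2, mul_inv_cancel_right]
  rw [h2] at h1
  exact h1

/-- conjugate subgroups have fixed points of the same number -/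
theorem card_conj {R A : Subgroup G} {y : G} (hy : y ∈ normalizer (R : Set G)) :
    Nat.card ↥(R ⊓ centralizer (A.map (MulAut.conj y).toMonoidHom : Set G)) = Nat.card ↥(R ⊓ centralizer (A : Set G)) := by
  have h : R ⊓ centralizer (A.map (MulAut.conj y).toMonoidHom : Set G) =
      (R ⊓ centralizer (A : Set G)).map (MulAut.conj y).toMonoidHom := by
    ext x
    constructor
    · rintro ⟨h1, h2'⟩
      have h2 : x ∈ centralizer (A.map (MulAut.conj y).toMonoidHom : Set G) := h2'
      refine ⟨y⁻¹ * x * y, ⟨(mem_normalizer_iff''.1 hy x).1 h1, ?_⟩, ?_⟩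
      · show _ ∈ centralizer (A : Set G)
        rw [mem_centralizer_iff] at h2 ⊢
        intro a ha
        have h3 := h2 (y * a * y⁻¹) ⟨a, ha, rfl⟩
        calc a * (y⁻¹ * x * y) = y⁻¹ * (y * a * y⁻¹ * x) * y := by group
          _ = y⁻¹ * x * y * a := by rw [h3]; group
      · show y * (y⁻¹ * x * y) * y⁻¹ = x
        group
    · rintro ⟨c, ⟨h1, h2⟩, rfl⟩
      refine ⟨(mem_normalizer_iff.1 hy c).1 h1, ?_⟩
      show _ ∈ centralizer (A.map (MulAut.conj y).toMonoidHom : Set G)
      rw [mem_centralizer_iff]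
      rintro _ ⟨a, ha, rfl⟩
      show y * a * y⁻¹ * (y * c * y⁻¹) = y * c * y⁻¹ * (y * a * y⁻¹)
      have h3 : a * c = c * a := mem_centralizer_iff.1 h2 a ha
      calc y * a * y⁻¹ * (y * c * y⁻¹) = y * (a * c) * y⁻¹ := by group
        _ = y * c * y⁻¹ * (y * a * y⁻¹) := by rw [h3]; group
  rw [h]
  exact Nat.card_congr (Subgroup.equivMapOfInjective _ _ (MulAut.conj y).injective).symm.toEquiv

/-- two subgroups of order 5 with a common nontrivial element are equal -/
theorem eq_of_five {A B : Subgroup G} (hA : Nat.card A = 5) (hB : Nat.card B = 5) {g : G} (h1 : g ∈ A) (h2 : g ∈ B)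
    (hg : g ≠ 1) : A = B := by
  have key : ∀ C : Subgroup G, Nat.card C = 5 → g ∈ C → zpowers g = C := by
    intro C hC hgC
    have hle : zpowers g ≤ C := by
      rw [zpowers_le]
      exact hgC
    refine eq_of_le_of_card_ge hle ?_
    have h3 : Nat.card ↥(zpowers g) ∣ 5 := by
      rw [← hC]
      exact card_dvd_of_le hle
    rcases (Nat.dvd_prime (by norm_num : Nat.Prime 5)).1 h3 with h4 | h4
    · rw [Nat.card_zpowers, orderOf_eq_one_iff] at h4
      exact absurd h4 hg
    · rw [hC, h4]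
  rw [← key A hA h1, ← key B hB h2]

end W

theorem two_pow_mod (x : ℕ) : 2 ^ x % 5 = 2 ^ (x % 4) % 5 := by
  conv_lhs => rw [← Nat.div_add_mod x 4]
  rw [pow_add, pow_mul, Nat.mul_mod, Nat.pow_mod]
  norm_num

/-- the order of 2 modulo 5 is 4 -/
theorem mod_four {x y : ℕ} (h : 2 ^ x ≡ 2 ^ y [MOD 5]) : x % 4 = y % 4 := by
  have h1 : 2 ^ x % 5 = 2 ^ y % 5 := h
  rw [two_pow_mod, two_pow_mod y] at h1
  have hx : x % 4 < 4 := Nat.mod_lt _ (by norm_num)
  have hy : y % 4 < 4 := Nat.mod_lt _ (by norm_num)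
  revert h1
  generalize x % 4 = a at hx
  generalize y % 4 = b at hy
  interval_cases a <;> interval_cases b <;> simp

end Cfsg.Agent.H857.L5
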